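import Mathlib
import Cfsg.Agent.Lib.Char.Clifford
import Cfsg.Agent.Lib.Char.CliffordCorr

/-!
# Camina pairs of `r`-groups (for S4141): definitions.
-/

set_option autoImplicit false

namespace Cfsg.Agent.Lib.CamPair

open Cfsg Cfsg.Agent.Lib.Char.Basic Cfsg.Agent.Lib.Char.Ortho Cfsg.Agent.Lib.Char.Clifford

universe u

/-- `T` is the kernel of a Camina pair: every `x ∉ T` is conjugate to all of `x T`. -/
def CamP {R : Type u} [Group R] (T : Subgroup R) : Prop :=
  ∀ x : R, x ∉ T → ∀ d ∈ T, ∃ g : R, g * x * g⁻¹ = x * d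

/-- The elements of `R` under which the restriction of `τ` (a function on `T`) to `U` is invariant. -/
def Inv {R : Type u} [Group R] (T : Subgroup R) [hT : T.Normal] (τ : T → ℂ) (U : Subgroup R) (hU : U ≤ T)
    (g : R) : Prop :=
  ∀ u (hu : u ∈ U), τ ⟨g * u * g⁻¹, hT.conj_mem u (hU hu) g⟩ = τ ⟨u, hU hu⟩

end Cfsg.Agent.Lib.CamPair
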