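import Mathlib
import Cfsg.Agent.Lib.CamPair.Defs
import Cfsg.Agent.Lib.Char.Integrality
import Cfsg.Agent.Lib.Transfer.Camina
import Cfsg.Agent.Lib.PGroup.CyclicMax2
import Cfsg.Agent.Lib.PGroup.Basic
import Cfsg.Agent.Lib.Char.CliffordCorr

/-!
# Core of piece C of S4141: no fixed point free action of an `r`-group `R` off a Camina kernel `T`.
-/

set_option autoImplicit false

namespace Cfsg.Agent.Lib.CamPair

open Cfsg Cfsg.Agent.Lib.Char.Basic Cfsg.Agent.Lib.Char.Ortho Cfsg.Agent.Lib.Char.Clifford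
open scoped commutatorElement

universe u v

variable {R : Type u} [Group R] [Finite R] {r : ℕ} [Fact r.Prime]


namespace ClaimCAux

omit [Fact r.Prime] in
/-- The sum of a character over a subgroup is a natural multiple of its order. -/
theorem finsum_res_eq_nat {ψ : R → ℂ} (hψ : IsCharacter R ψ) (X : Subgroup R) :
    ∃ n : ℕ, ∑ᶠ x : X, ψ x = (Nat.card X : ℂ) * n := by
  classical
  haveI : Fintype X := Fintype.ofFinite X
  obtain ⟨n, hn⟩ := exists_nat_classInner_of_isCharacter (isCharacter_restrict hψ X)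
    (isCharacter_one (G := X))
  refine ⟨n, ?_⟩
  rw [← hn, classInner, finsum_eq_sum_of_fintype]
  have h0 : (Nat.card X : ℂ) ≠ 0 := Nat.cast_ne_zero.mpr Nat.card_pos.ne'
  rw [← mul_assoc, mul_inv_cancel₀ h0, one_mul]
  simp

omit [Fact r.Prime] in
/-- An irreducible constituent of a character without fixed vectors has no fixed vectors. -/
theorem finsum_eq_zero_of_constituent [Fintype R] {Ξ χ : R → ℂ} (hΞ : IsCharacter R Ξ)
    (hχ : IsIrrCharacter R χ)
    (hc : classInner Ξ χ ≠ 0) (X : Subgroup R) (h : ∑ᶠ x : X, Ξ x = 0) : ∑ᶠ x : X, χ x = 0 := by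
  obtain ⟨Ξ', hΞ', rfl⟩ := exists_char_add hΞ hχ hc
  obtain ⟨m, hm⟩ := finsum_res_eq_nat (isCharacter_of_isIrrCharacter hχ) X
  obtain ⟨m', hm'⟩ := finsum_res_eq_nat hΞ' X
  have h1 : ∑ᶠ x : X, (χ + Ξ') x = ∑ᶠ x : X, χ x + ∑ᶠ x : X, Ξ' x :=
    finsum_add_distrib (Set.toFinite _) (Set.toFinite _)
  rw [h1, hm, hm'] at h
  have h0 : (Nat.card X : ℂ) ≠ 0 := Nat.cast_ne_zero.mpr Nat.card_pos.ne'
  rw [← mul_add] at h
  have h2 : ((m : ℂ) + m') = 0 := (mul_eq_zero.1 h).resolve_left h0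
  have h3 : m + m' = 0 := by exact_mod_cast h2
  have h4 : m = 0 := by omega
  rw [hm, h4]
  simp

omit [Fact r.Prime] in
theorem sum_range_eq_finsum (χ : R → ℂ) (x : R) :
    ∑ k ∈ Finset.range (orderOf x), χ (x ^ k) = ∑ᶠ y : Subgroup.zpowers x, χ y := by
  classical
  haveI : Fintype (Subgroup.zpowers x) := Fintype.ofFinite _
  rw [finsum_eq_sum_of_fintype, Finset.sum_range]
  exact Fintype.sum_equiv (finEquivZPowers (isOfFinOrder_of_finite x)) _ _ (fun i => by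
    rw [finEquivZPowers_apply])

omit [Fact r.Prime] in
/-- A Camina element: an irreducible character without `T`-fixed vectors vanishes. -/
theorem vanish_of_camina (T : Subgroup R) [hN : T.Normal] (hC : CamP T) {χ : R → ℂ}
    (hχ : IsIrrCharacter R χ) (hT : ∑ᶠ d : T, χ d = 0) (x : R) (hx : x ∉ T) : χ x = 0 := by
  classical
  haveI : Fintype T := Fintype.ofFinite T
  have hclass := isClassFunction_of_isCharacter (isCharacter_of_isIrrCharacter hχ)
  obtain ⟨n, ρ, hirr, rfl⟩ := hχ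
  haveI := hirr
  let E : Module.End ℂ (Fin n → ℂ) := ∑ d : T, ρ (d : R)
  have hcomm : ∀ g, E ∘ₗ ρ g = ρ g ∘ₗ E := by
    intro g
    have h1 : ρ g * E = ∑ d : T, ρ (g * (d : R)) := by
      simp only [E, Finset.mul_sum, map_mul]
    have h2 : E * ρ g = ∑ d : T, ρ ((d : R) * g) := by
      simp only [E, Finset.sum_mul, map_mul]
    show E * ρ g = ρ g * E
    rw [h1, h2]
    let e : T ≃ T :=
      { toFun := fun d => ⟨g⁻¹ * d * g, by simpa using hN.conj_mem d d.2 g⁻¹⟩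
        invFun := fun d => ⟨g * d * g⁻¹, hN.conj_mem d d.2 g⟩
        left_inv := fun d => Subtype.ext (by simp [mul_assoc])
        right_inv := fun d => Subtype.ext (by simp [mul_assoc]) }
    refine Fintype.sum_equiv e _ _ fun d => ?_
    show ρ ((d : R) * g) = ρ (g * (g⁻¹ * (d : R) * g))
    congr 1
    group
  obtain ⟨a, ha⟩ := Cfsg.Agent.Lib.Char.Integrality.exists_smul_id_of_commute ρ E hcomm
  have hd : (Module.finrank ℂ (Fin n → ℂ) : ℂ) ≠ 0 :=
    Nat.cast_ne_zero.mpr (Cfsg.Agent.Lib.Char.Integrality.finrank_ne_zero_of_isIrreducible ρ)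
  have htr : LinearMap.trace ℂ _ E = 0 := by
    rw [finsum_eq_sum_of_fintype] at hT
    simp only [E, map_sum]
    exact hT
  have ha0 : a = 0 := by
    rw [ha, map_smul, LinearMap.trace_id, smul_eq_mul] at htr
    exact (mul_eq_zero.1 htr).resolve_right hd
  have hE0 : E = 0 := by rw [ha, ha0, zero_smul]
  have hsum : ∑ d : T, ρ.character (x * (d : R)) = 0 := by
    have h1 : ∑ d : T, ρ.character (x * (d : R)) = LinearMap.trace ℂ _ (ρ x * E) := by
      simp only [E, Finset.mul_sum, map_sum, Representation.character, map_mul]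
    rw [h1, hE0, mul_zero, map_zero]
  have hall : ∀ d : T, ρ.character (x * (d : R)) = ρ.character x := by
    intro d
    obtain ⟨g, hg⟩ := hC x hx d d.2
    rw [← hg]
    exact hclass x g
  simp only [hall, Finset.sum_const, Finset.card_univ, nsmul_eq_mul] at hsum
  have h0 : ((Fintype.card T : ℕ) : ℂ) ≠ 0 := Nat.cast_ne_zero.mpr Fintype.card_pos.ne'
  exact (mul_eq_zero.1 hsum).resolve_left h0

/-- In an `r`-group, a Camina kernel has noncyclic quotient. -/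
theorem not_cyclic_quotient (hR : IsPGroup r R) (T : Subgroup R) [hN : T.Normal] (hT1 : T ≠ ⊥)
    (hT : T ≠ ⊤) (hC : CamP T) : ¬ IsCyclic (R ⧸ T) := by
  intro hcyc
  obtain ⟨q, hq⟩ := hcyc.exists_generator
  obtain ⟨x, rfl⟩ := QuotientGroup.mk_surjective q
  have hx : x ∉ T := by
    intro hxT
    apply hT
    rw [eq_top_iff]
    intro g _
    obtain ⟨k, hk⟩ := Subgroup.mem_zpowers_iff.1 (hq (g : R ⧸ T))
    have h1 : ((x ^ k : R) : R ⧸ T) = (g : R ⧸ T) := by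
      rw [QuotientGroup.mk_zpow]; exact hk
    have h2 : (g : R ⧸ T) = 1 := by
      rw [← h1, (QuotientGroup.eq_one_iff _).2 (T.zpow_mem hxT k)]
    exact (QuotientGroup.eq_one_iff g).1 h2
  -- `T ≤ [T, R]`
  have hle : T ≤ ⁅T, (⊤ : Subgroup R)⁆ := by
    intro d hd
    obtain ⟨g, hg⟩ := hC x hx d hd
    obtain ⟨k, hk⟩ := Subgroup.mem_zpowers_iff.1 (hq (g : R ⧸ T))
    have h1 : (((x ^ k)⁻¹ * g : R) : R ⧸ T) = 1 := by
      rw [QuotientGroup.mk_mul, QuotientGroup.mk_inv, QuotientGroup.mk_zpow, hk, inv_mul_cancel]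
    obtain ⟨t, htT, ht⟩ : ∃ t ∈ T, g = x ^ k * t :=
      ⟨(x ^ k)⁻¹ * g, (QuotientGroup.eq_one_iff _).1 h1, by group⟩
    subst ht
    have h2 : d = x ^ k * (t * x⁻¹ * t⁻¹ * x)⁻¹ * (x ^ k)⁻¹ := by
      have h3 : d = x⁻¹ * ((x ^ k * t) * x * (x ^ k * t)⁻¹) := by rw [hg]; group
      rw [h3]; group
    rw [h2]
    have h4 : t * x⁻¹ * t⁻¹ * x ∈ ⁅T, (⊤ : Subgroup R)⁆ := by
      have h5 : t * x⁻¹ * t⁻¹ * x = ⁅t, x⁻¹⁆ := by
        rw [commutatorElement_def, inv_inv]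
      rw [h5]
      exact Subgroup.commutator_mem_commutator htT (Subgroup.mem_top _)
    exact (Subgroup.commutator_normal T ⊤).conj_mem _ (Subgroup.inv_mem _ h4) _
  have hnil : Group.IsNilpotent R := hR.isNilpotent
  obtain ⟨n, hn⟩ := Subgroup.nilpotent_iff_lowerCentralSeries.1 hnil
  have hall : ∀ m, T ≤ (⊤ : Subgroup R).lowerCentralSeries m := by
    intro m
    induction m with
    | zero => simp
    | succ m ih => exact hle.trans (Subgroup.commutator_mono ih le_rfl)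
  apply hT1
  rw [eq_bot_iff, ← hn]
  exact hall n

/-- An independent commuting pair of order `r` in the quotient. -/
theorem exists_pair (hodd : r ≠ 2) (hR : IsPGroup r R) (T : Subgroup R) [hN : T.Normal]
    (hnc : ¬ IsCyclic (R ⧸ T)) :
    ∃ a b : R ⧸ T, a ^ r = 1 ∧ b ^ r = 1 ∧ a * b = b * a ∧ a ≠ 1 ∧ b ∉ Subgroup.zpowers a := by
  have hG : IsPGroup r (R ⧸ T) := hR.to_quotient T
  have hu : ¬ Cfsg.Agent.Lib.PGroup.CyclicMax2.UniqueP r (R ⧸ T) := by
    intro hu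
    rcases Cfsg.Agent.Lib.PGroup.CyclicMax2.cyclic_or_quaternion hG hu with h | h
    · exact hnc h
    · exact hodd h.1
  obtain ⟨E, hE, hEa⟩ := Cfsg.Agent.Lib.PGroup.CyclicMax2.exists_order_sq_of_not_uniqueP hG hu
  rw [Cfsg.Agent.Lib.PGroup.Basic.isElementaryAbelian_iff] at hEa
  obtain ⟨hEc, hEp⟩ := hEa
  have hr : r.Prime := Fact.out
  have h1 : 1 < Nat.card E := by
    rw [hE]
    exact Nat.one_lt_pow two_ne_zero hr.one_lt
  haveI : Nontrivial E := (Finite.one_lt_card_iff_nontrivial).1 h1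
  obtain ⟨a, ha⟩ := exists_ne (1 : E)
  have ha1 : (a : R ⧸ T) ≠ 1 := fun h => ha (Subtype.ext h)
  have hapow : (a : R ⧸ T) ^ r = 1 := hEp _ a.2
  have hcard : Nat.card (Subgroup.zpowers (a : R ⧸ T)) = r := by
    rw [Nat.card_zpowers]
    exact orderOf_eq_prime hapow ha1
  obtain ⟨b, hb⟩ : ∃ b ∈ E, b ∉ Subgroup.zpowers (a : R ⧸ T) := by
    by_contra hcon
    push Not at hcon
    have h2 : Nat.card E ≤ Nat.card (Subgroup.zpowers (a : R ⧸ T)) :=
      Subgroup.card_le_of_le hcon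
    rw [hE, hcard] at h2
    have h3 : r < r ^ 2 := by
      rw [pow_two]
      exact lt_mul_self hr.one_lt
    omega
  exact ⟨a, b, hapow, hEp _ hb.1, hEc _ a.2 _ hb.1, ha1, hb.2⟩

/-- The fixed points of `T` are trivial. -/
theorem cent_trivial {A : Type v} [CommGroup A] [Finite A] {s : ℕ} [Fact s.Prime] (hrs : s ≠ r)
    (hA : ∀ a : A, a ^ s = 1) (φ : R →* MulAut A) (T : Subgroup R) [hN : T.Normal]
    (hfix : ∀ x, x ∉ T → ∀ a : A, φ x a = a → a = 1) (a₀ b₀ : R) (ha : a₀ ^ r ∈ T) (hb : b₀ ^ r ∈ T)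
    (hab : a₀ * b₀ * a₀⁻¹ * b₀⁻¹ ∈ T) (h1 : ∀ k, 0 < k → k < r → b₀ ^ k ∉ T)
    (h2 : ∀ j : ℕ, a₀ * b₀ ^ j ∉ T) (a : A) (hat : ∀ t ∈ T, φ t a = a) : a = 1 := by
  let W : Subgroup A :=
    { carrier := {a | ∀ t ∈ T, φ t a = a}
      one_mem' := fun t _ => map_one (φ t)
      mul_mem' := fun {x y} hx hy t ht => by rw [map_mul, hx t ht, hy t ht]
      inv_mem' := fun {x} hx t ht => by rw [map_inv, hx t ht] }
  have hφ : ∀ (x y : R) (w : A), φ (x * y) w = φ x (φ y w) := fun x y w => by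
    rw [map_mul]; rfl
  have hW : ∀ c : R, ∀ w ∈ W, φ c w ∈ W := by
    intro c w hw t ht
    have h3 : t * c = c * (c⁻¹ * t * c) := by group
    have h4 : c⁻¹ * t * c ∈ T := by
      simpa using hN.conj_mem t ht c⁻¹
    rw [← hφ, h3, hφ, hw _ h4]
  let E : R → Monoid.End W := fun c =>
    (show W →* W from
      { toFun := fun w => ⟨φ c w, hW c w w.2⟩
        map_one' := Subtype.ext (map_one (φ c))
        map_mul' := fun x y => Subtype.ext (map_mul (φ c) _ _) })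
  have hEv : ∀ (c : R) (w : W), ((E c w : W) : A) = φ c w := fun _ _ => rfl
  have hEk : ∀ (c : R) (k : ℕ) (w : W), (((E c ^ k) w : W) : A) = φ (c ^ k) w := by
    intro c k
    induction k with
    | zero => intro w; simp
    | succ k ih =>
      intro w
      rw [pow_succ']
      show ((E c ((E c ^ k) w) : W) : A) = _
      rw [hEv, ih, pow_succ', hφ]
  have hcomm : Commute (E a₀) (E b₀) := by
    ext w
    show (φ a₀ (φ b₀ w) : A) = φ b₀ (φ a₀ w)
    have h3 : a₀ * b₀ = (a₀ * b₀ * a₀⁻¹ * b₀⁻¹) * (b₀ * a₀) := by group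
    calc φ a₀ (φ b₀ w) = φ (a₀ * b₀) w := (hφ _ _ _).symm
      _ = φ ((a₀ * b₀ * a₀⁻¹ * b₀⁻¹) * (b₀ * a₀)) w := by rw [← h3]
      _ = φ (a₀ * b₀ * a₀⁻¹ * b₀⁻¹) (φ (b₀ * a₀) w) := hφ _ _ _
      _ = φ (a₀ * b₀ * a₀⁻¹ * b₀⁻¹) (φ b₀ (φ a₀ w)) := by rw [hφ b₀ a₀]
      _ = φ b₀ (φ a₀ w) := hW b₀ _ (hW a₀ _ w.2) _ hab
  have hαp : E a₀ ^ r = 1 := by
    ext w
    rw [hEk]
    exact w.2 _ ha
  have hβp : E b₀ ^ r = 1 := by
    ext w
    rw [hEk]
    exact w.2 _ hb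
  have key := Cfsg.Agent.Lib.Transfer.Camina.rank2_core (E a₀) (E b₀) hcomm hαp hβp
    (by
      intro k hk0 hkr w hw
      apply Subtype.ext
      refine hfix _ (h1 k hk0 hkr) _ ?_
      rw [← hEk, hw])
    (by
      intro j w hw
      apply Subtype.ext
      refine hfix _ (h2 j) _ ?_
      have h3 : (((E a₀ * E b₀ ^ j) w : W) : A) = φ (a₀ * b₀ ^ j) w := by
        show ((E a₀ ((E b₀ ^ j) w) : W) : A) = _
        rw [hEv, hEk, hφ]
      rw [← h3, hw])
    ⟨a, hat⟩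
  have h3 : a ^ r = 1 := congrArg Subtype.val key
  have h4 : a ^ s = 1 := hA a
  have h5 : orderOf a ∣ 1 := by
    have hc : Nat.Coprime r s :=
      (Nat.coprime_primes (Fact.out) (Fact.out)).2 (Ne.symm hrs)
    rw [← hc.gcd_eq_one]
    exact Nat.dvd_gcd (orderOf_dvd_of_pow_eq_one h3) (orderOf_dvd_of_pow_eq_one h4)
  exact orderOf_eq_one_iff.1 (Nat.dvd_one.1 h5)

end ClaimCAux

open ClaimCAux in
/-- **Piece C**, with the three inputs as hypotheses. -/
theorem eq_one_of_fpf_core (hodd : r ≠ 2) (hR : IsPGroup r R) (T : Subgroup R) [hN : T.Normal] (hT1 : T ≠ ⊥)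
    (hT : T ≠ ⊤) (hC : CamP T) {A : Type v} [CommGroup A] [Finite A] {s : ℕ} [Fact s.Prime]
    (hrs : s ≠ r) (hA : ∀ a : A, a ^ s = 1) (φ : R →* MulAut A)
    (hfix : ∀ x, x ∉ T → ∀ a : A, φ x a = a → a = 1)
    (hlift : Nontrivial A → ∃ Ξ : R → ℂ, IsCharacter R Ξ ∧ Ξ 1 ≠ 0 ∧
      ∀ X : Subgroup R, (∀ a : A, (∀ x ∈ X, φ x a = a) → a = 1) → ∑ᶠ x : X, Ξ x = 0)
    (hreg : ∀ χ : R → ℂ, IsIrrCharacter R χ → (∀ x, x ∉ T → χ x = 0) →
      (∀ x, x ∉ T → ∑ k ∈ Finset.range (orderOf x), χ (x ^ k) = 0) →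
      ∃ τ : T → ℂ, IsIrrCharacter T τ ∧ ∀ g : R, conjFun T g τ = τ → g ∈ T)
    (hno : T.index ≠ r → ∀ τ : T → ℂ, IsIrrCharacter T τ → (∀ g : R, conjFun T g τ = τ → g ∈ T) → False)
    (a : A) : a = 1 := by
  classical
  by_contra ha
  haveI : Nontrivial A := ⟨⟨a, 1, ha⟩⟩
  haveI : Fintype R := Fintype.ofFinite R
  have hr : r.Prime := Fact.out
  have hnc := not_cyclic_quotient hR T hT1 hT hC
  have hidx : T.index ≠ r := by
    intro h
    apply hnc
    haveI : Fact (Nat.card (R ⧸ T)).Prime := ⟨by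
      show (T.index).Prime
      rw [h]; exact hr⟩
    exact isCyclic_of_prime_card rfl
  -- the independent pair
  obtain ⟨a', b', ha'p, hb'p, habc, ha'1, hb'2⟩ := exists_pair hodd hR T hnc
  obtain ⟨a₀, rfl⟩ := QuotientGroup.mk_surjective a'
  obtain ⟨b₀, rfl⟩ := QuotientGroup.mk_surjective b'
  have hmem : ∀ {x : R}, (x : R ⧸ T) = 1 ↔ x ∈ T := fun {x} => QuotientGroup.eq_one_iff x
  have hcT : ∀ a : A, (∀ t ∈ T, φ t a = a) → a = 1 := by
    refine cent_trivial hrs hA φ T hfix a₀ b₀ ?_ ?_ ?_ ?_ ?_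
    · rw [← hmem, QuotientGroup.mk_pow]; exact ha'p
    · rw [← hmem, QuotientGroup.mk_pow]; exact hb'p
    · rw [← hmem]
      simp only [QuotientGroup.mk_mul, QuotientGroup.mk_inv]
      rw [habc]
      group
    · intro k hk0 hkr h
      rw [← hmem, QuotientGroup.mk_pow] at h
      have hb1 : (b₀ : R ⧸ T) ≠ 1 := fun h1 => hb'2 (by rw [h1]; exact Subgroup.one_mem _)
      have hob : orderOf (b₀ : R ⧸ T) = r := orderOf_eq_prime hb'p hb1
      exact pow_ne_one_of_lt_orderOf hk0.ne' (by rwa [hob]) h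
    · intro j h
      rw [← hmem, QuotientGroup.mk_mul, QuotientGroup.mk_pow] at h
      have hb1 : (b₀ : R ⧸ T) ≠ 1 := fun h1 => hb'2 (by rw [h1]; exact Subgroup.one_mem _)
      have hob : orderOf (b₀ : R ⧸ T) = r := orderOf_eq_prime hb'p hb1
      by_cases hpj : r ∣ j
      · obtain ⟨m, rfl⟩ := hpj
        rw [pow_mul, hb'p, one_pow, mul_one] at h
        exact ha'1 h
      · have hcop : Nat.Coprime j (orderOf (b₀ : R ⧸ T)) := by
          rw [hob]
          exact ((Nat.Prime.coprime_iff_not_dvd hr).2 hpj).symm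
        obtain ⟨m, hm⟩ := exists_pow_eq_self_of_coprime hcop
        apply hb'2
        rw [← hm]
        have h3 : (b₀ : R ⧸ T) ^ j = (a₀ : R ⧸ T)⁻¹ := (inv_eq_of_mul_eq_one_right h).symm
        rw [h3]
        exact Subgroup.pow_mem _ (Subgroup.inv_mem _ (Subgroup.mem_zpowers _)) m
  obtain ⟨Ξ, hΞ, hΞ1, hΞX⟩ := hlift inferInstance
  obtain ⟨χ, hχ, hc⟩ := Cfsg.Agent.Lib.Char.CliffordCorr.exists_irr_constituent hΞ hΞ1
  have hT0 : ∑ᶠ d : T, χ d = 0 :=
    finsum_eq_zero_of_constituent hΞ hχ hc T (hΞX T hcT)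
  have hvan : ∀ x, x ∉ T → χ x = 0 := fun x hx => vanish_of_camina T hC hχ hT0 x hx
  have hne : ∀ x, x ∉ T → ∑ k ∈ Finset.range (orderOf x), χ (x ^ k) = 0 := by
    intro x hx
    rw [sum_range_eq_finsum]
    refine finsum_eq_zero_of_constituent hΞ hχ hc _ (hΞX _ ?_)
    intro a hy
    exact hfix x hx a (hy x (Subgroup.mem_zpowers x))
  obtain ⟨τ, hτ, hreg'⟩ := hreg χ hχ hvan hne
  exact hno hidx τ hτ hreg'

end Cfsg.Agent.Lib.CamPair
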