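import Mathlib

/-!
# `r`-subgroups of `GL_n(K)` are monomial (`r` odd, `r ∣ |K| - 1`).
Helper for `Lib/CamPair/Lift.lean`.
-/

set_option autoImplicit false

namespace Cfsg.Agent.Lib.CamPair.LiftRow

open Matrix

/-- In a finite group, a submonoid is a subgroup. -/
def subgroupOfSubmonoid {G : Type*} [Group G] [Finite G] (S : Submonoid G) : Subgroup G :=
  { S with
    inv_mem' := by
      intro x hx
      have h : x⁻¹ = x ^ (orderOf x - 1) := by
        apply inv_eq_of_mul_eq_one_right
        rw [← pow_succ', Nat.sub_add_cancel (orderOf_pos x), pow_orderOf_eq_one]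
      rw [h]
      exact S.pow_mem hx _ }

variable {K : Type*} [Field K] {n : ℕ}

/-- Every row has at most one nonzero entry. -/
def RowMon (M : Matrix (Fin n) (Fin n) K) : Prop :=
  ∀ i j j', M i j ≠ 0 → M i j' ≠ 0 → j = j'

lemma RowMon.mul_apply {A : Matrix (Fin n) (Fin n) K} (hA : RowMon A)
    (B : Matrix (Fin n) (Fin n) K) {i k : Fin n} (hk : A i k ≠ 0) (j : Fin n) :
    (A * B) i j = A i k * B k j := by
  rw [Matrix.mul_apply]
  apply Finset.sum_eq_single k
  · intro b _ hb
    have : A i b = 0 := by
      by_contra h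
      exact hb (hA i b k h hk)
    rw [this, zero_mul]
  · simp

lemma RowMon.mul_apply_zero {A : Matrix (Fin n) (Fin n) K}
    (B : Matrix (Fin n) (Fin n) K) {i : Fin n} (hk : ∀ k, A i k = 0) (j : Fin n) :
    (A * B) i j = 0 := by
  rw [Matrix.mul_apply]
  simp [hk]

lemma RowMon.mul {A B : Matrix (Fin n) (Fin n) K} (hA : RowMon A) (hB : RowMon B) :
    RowMon (A * B) := by
  intro i j j' h h'
  by_cases hk : ∀ k, A i k = 0
  · exact absurd (RowMon.mul_apply_zero B hk j) h
  · push Not at hk
    obtain ⟨k, hk⟩ := hk
    rw [hA.mul_apply B hk] at h h'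
    exact hB k j j' (right_ne_zero_of_mul h) (right_ne_zero_of_mul h')

lemma rowMon_one : RowMon (1 : Matrix (Fin n) (Fin n) K) := by
  intro i j j' h h'
  rw [Matrix.one_apply] at h h'
  split_ifs at h h' with h1 h2
  · exact h1.symm.trans h2
  all_goals simp_all

/-- A multiplicative map of `K` with zero, applied entrywise, is multiplicative on row-monomial
matrices. -/
lemma RowMon.map_mul {L : Type*} [Field L] (f : K →*₀ L) {A : Matrix (Fin n) (Fin n) K}
    (hA : RowMon A) (B : Matrix (Fin n) (Fin n) K) :
    (A * B).map f = A.map f * B.map f := by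
  ext i j
  rw [Matrix.map_apply, Matrix.mul_apply (M := A.map f)]
  by_cases hk : ∀ k, A i k = 0
  · rw [RowMon.mul_apply_zero B hk j]
    simp [hk]
  · push Not at hk
    obtain ⟨k, hk⟩ := hk
    rw [hA.mul_apply B hk, _root_.map_mul, Finset.sum_eq_single k]
    · simp
    · intro b _ hb
      have : A i b = 0 := by
        by_contra h
        exact hb (hA i b k h hk)
      simp [this]
    · simp

variable (K n) in
/-- The monomial subgroup of `GL_n(K)`. -/
def monoW [Finite K] : Subgroup (GL (Fin n) K) :=
  subgroupOfSubmonoid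
    { carrier := {g | RowMon (g : Matrix (Fin n) (Fin n) K)}
      one_mem' := by
        change RowMon ((1 : GL (Fin n) K) : Matrix (Fin n) (Fin n) K)
        rw [Units.val_one]
        exact rowMon_one
      mul_mem' := by
        intro a b ha hb
        change RowMon ((a * b : GL (Fin n) K) : Matrix (Fin n) (Fin n) K)
        rw [Units.val_mul]
        exact RowMon.mul ha hb }

lemma mem_monoW [Finite K] {g : GL (Fin n) K} :
    g ∈ monoW K n ↔ RowMon (g : Matrix (Fin n) (Fin n) K) := Iff.rfl

/-- The monomial matrix with entries `c i` at `(i, π i)`. -/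
noncomputable def monoOf (c : Fin n → Kˣ) (π : Equiv.Perm (Fin n)) : GL (Fin n) K :=
  Matrix.GeneralLinearGroup.mkOfDetNeZero
    (Matrix.of fun i j => if π i = j then (c i : K) else 0) (by
      have : (Matrix.of fun i j => if π i = j then (c i : K) else 0) =
          Matrix.diagonal (fun i => (c i : K)) * (π.toPEquiv.toMatrix) := by
        ext i j
        rw [Matrix.diagonal_mul, PEquiv.toMatrix_apply]
        simp [Equiv.toPEquiv_apply, Option.mem_def, eq_comm]
      rw [this, Matrix.det_mul, Matrix.det_diagonal, Matrix.det_permutation]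
      simp only [ne_eq, mul_eq_zero, not_or]
      refine ⟨?_, ?_⟩
      · rw [Finset.prod_eq_zero_iff]
        simp
      · rcases Int.units_eq_one_or (Equiv.Perm.sign π) with h | h <;> simp [h])

lemma monoOf_apply (c : Fin n → Kˣ) (π : Equiv.Perm (Fin n)) (i j : Fin n) :
    (monoOf c π : Matrix (Fin n) (Fin n) K) i j = if π i = j then (c i : K) else 0 := rfl

lemma card_monoW [Fintype K] :
    Nat.card (monoW K n) = (Fintype.card K - 1) ^ n * n.factorial := by
  classical
  let F : (Fin n → Kˣ) × Equiv.Perm (Fin n) → monoW K n := fun p =>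
    ⟨monoOf p.1 p.2, by
      intro i j j' h h'
      rw [monoOf_apply] at h h'
      split_ifs at h h' with h1 h2
      · exact h1.symm.trans h2
      all_goals simp_all⟩
  have hF : Function.Bijective F := by
    constructor
    · rintro ⟨c, π⟩ ⟨c', π'⟩ h
      have h' : ∀ i j, (if π i = j then (c i : K) else 0) = if π' i = j then (c' i : K) else 0 := by
        intro i j
        have := congrArg (fun x : monoW K n => (x : GL (Fin n) K).1 i j) h
        simpa [F, monoOf_apply] using this
      have hπ : π = π' := by
        ext i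
        have := h' i (π i)
        rw [if_pos rfl] at this
        split_ifs at this with h1
        · rw [h1]
        · exact absurd this (c i).ne_zero
      subst hπ
      have hc : c = c' := by
        funext i
        have := h' i (π i)
        rw [if_pos rfl, if_pos rfl] at this
        exact Units.ext this
      rw [hc]
    · rintro ⟨g, hg⟩
      have hg' : RowMon (g : Matrix (Fin n) (Fin n) K) := hg
      have hdet : ∀ i k, ((g : Matrix (Fin n) (Fin n) K) * (g⁻¹ : GL (Fin n) K).1) i k =
          if i = k then 1 else 0 := by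
        intro i k
        rw [← Units.val_mul, mul_inv_cancel, Units.val_one, Matrix.one_apply]
      have hex : ∀ i, ∃ j, (g : Matrix (Fin n) (Fin n) K) i j ≠ 0 := by
        intro i
        by_contra hk
        push Not at hk
        have := hdet i i
        rw [RowMon.mul_apply_zero _ hk, if_pos rfl] at this
        exact zero_ne_one this
      choose π₀ hπ₀ using hex
      have hinj : Function.Injective π₀ := by
        intro i i' h
        by_contra hne
        have h1 := hdet i i
        have h2 := hdet i' i
        rw [hg'.mul_apply _ (hπ₀ i), if_pos rfl] at h1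
        rw [hg'.mul_apply _ (hπ₀ i'), if_neg (Ne.symm hne), ← h] at h2
        have h3 := (mul_eq_zero.mp h2).resolve_left (by rw [h]; exact hπ₀ i')
        rw [h3, mul_zero] at h1
        exact zero_ne_one h1
      let π : Equiv.Perm (Fin n) := Equiv.ofBijective π₀ (Finite.injective_iff_bijective.mp hinj)
      refine ⟨(fun i => Units.mk0 _ (hπ₀ i), π), ?_⟩
      apply Subtype.ext
      apply Units.ext
      ext i j
      change ((monoOf _ _ : GL (Fin n) K) : Matrix (Fin n) (Fin n) K) i j = _
      rw [monoOf_apply]
      change (if π₀ i = j then _ else _) = _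
      split_ifs with h
      · subst h
        rfl
      · by_contra h'
        exact h (hg' i _ _ (hπ₀ i) (Ne.symm h'))
  rw [← Nat.card_congr (Equiv.ofBijective F hF), Nat.card_prod, Nat.card_fun, Nat.card_units,
    Nat.card_eq_fintype_card (α := Equiv.Perm (Fin n)), Fintype.card_perm, Fintype.card_fin,
    Nat.card_eq_fintype_card (α := K), Nat.card_fin]

lemma padicValNat_prod' {r : ℕ} [Fact r.Prime] {ι : Type*} (s : Finset ι) (f : ι → ℕ)
    (hf : ∀ i ∈ s, f i ≠ 0) :
    padicValNat r (∏ i ∈ s, f i) = ∑ i ∈ s, padicValNat r (f i) := by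
  classical
  induction s using Finset.induction_on with
  | empty => simp
  | insert a s ha ih =>
    rw [Finset.prod_insert ha, Finset.sum_insert ha, padicValNat.mul (hf a (Finset.mem_insert_self _ _))
      (Finset.prod_ne_zero_iff.mpr fun i hi => hf i (Finset.mem_insert_of_mem hi)),
      ih fun i hi => hf i (Finset.mem_insert_of_mem hi)]

lemma val_card_GL [Fintype K] {r : ℕ} [hr : Fact r.Prime] (hodd : r ≠ 2)
    (hq : r ∣ Fintype.card K - 1) :
    padicValNat r (Nat.card (GL (Fin n) K)) =
      padicValNat r ((Fintype.card K - 1) ^ n * n.factorial) := by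
  set q := Fintype.card K with hqdef
  have hq2 : 1 < q := Fintype.one_lt_card
  have hrq : ¬ r ∣ q := by
    intro h
    have h1 : r ∣ 1 := by
      have := Nat.sub_sub_self hq2.le
      rw [← this]
      exact Nat.dvd_sub h hq
    exact hr.out.one_lt.ne' (Nat.dvd_one.mp h1)
  have hoddr : Odd r := hr.out.odd_of_ne_two hodd
  have hcard : Nat.card (GL (Fin n) K) = ∏ i ∈ Finset.range n, (q ^ n - q ^ i) := by
    rw [Matrix.card_GL_field, Fin.prod_univ_eq_prod_range (fun i => Fintype.card K ^ n - Fintype.card K ^ i) n]
  have hpw : padicValNat r ((q - 1) ^ n) = n * padicValNat r (q - 1) :=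
    padicValNat.pow _ _
  rw [hcard, padicValNat_prod']
  · rw [padicValNat.mul (pow_ne_zero _ (by omega)) (Nat.factorial_ne_zero _), hpw]
    have h1 : ∀ i ∈ Finset.range n, padicValNat r (q ^ n - q ^ i) =
        padicValNat r (q - 1) + padicValNat r (n - 1 - i + 1) := by
      intro i hi
      have hi' : i < n := Finset.mem_range.mp hi
      have : q ^ n - q ^ i = q ^ i * (q ^ (n - 1 - i + 1) - 1 ^ (n - 1 - i + 1)) := by
        rw [one_pow, Nat.mul_sub, mul_one, ← pow_add]
        congr 2
        omega
      rw [this, padicValNat.mul (pow_ne_zero _ (by omega)) ?_, padicValNat.pow _ _,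
        padicValNat.pow_sub_pow hoddr hq2 (by simpa using hq) hrq (by omega)]
      · rw [padicValNat.eq_zero_of_not_dvd hrq]
        simp
      · rw [one_pow]
        have : 1 < q ^ (n - 1 - i + 1) := Nat.one_lt_pow (by omega) hq2
        omega
    rw [Finset.sum_congr rfl h1, Finset.sum_add_distrib, Finset.sum_const, Finset.card_range,
      smul_eq_mul, Finset.sum_range_reflect (fun j => padicValNat r (j + 1)) n,
      ← Finset.prod_range_add_one_eq_factorial, padicValNat_prod']
    intro i _
    omega
  · intro i hi
    have hi' : i < n := Finset.mem_range.mp hi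
    have := Nat.pow_lt_pow_right hq2 hi'
    omega

/-- `r`-subgroups of `GL_n(K)` are conjugate into the monomial subgroup. -/
theorem exists_conj_mono [Fintype K] {r : ℕ} [hr : Fact r.Prime] (hodd : r ≠ 2)
    (hq : r ∣ Fintype.card K - 1) (P : Subgroup (GL (Fin n) K)) (hP : IsPGroup r P) :
    ∃ g : GL (Fin n) K, ∀ y ∈ P, g⁻¹ * y * g ∈ monoW K n := by
  classical
  have hq2 : 1 < Fintype.card K := Fintype.one_lt_card
  have hGne : Nat.card (GL (Fin n) K) ≠ 0 := Nat.card_pos.ne'
  set v := padicValNat r (Nat.card (GL (Fin n) K)) with hv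
  have hdvd : r ^ v ∣ Nat.card (monoW K n) := by
    rw [card_monoW, hv, val_card_GL hodd hq]
    exact pow_padicValNat_dvd
  obtain ⟨Q, hQ⟩ := Sylow.exists_subgroup_card_pow_prime r hdvd
  let Q' : Subgroup (GL (Fin n) K) := Q.map (monoW K n).subtype
  have hQ' : Nat.card Q' = r ^ (Nat.card (GL (Fin n) K)).factorization r := by
    rw [Nat.factorization_def _ hr.out, ← hv, ← hQ]
    exact Nat.card_congr (Subgroup.equivMapOfInjective Q _ (Subgroup.subtype_injective _)).symm.toEquiv
  let S : Sylow r (GL (Fin n) K) := Sylow.ofCard Q' hQ'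
  obtain ⟨S', hS'⟩ := hP.exists_le_sylow
  obtain ⟨g, hg⟩ := MulAction.exists_smul_eq (GL (Fin n) K) S S'
  refine ⟨g, fun y hy => ?_⟩
  have h1 : y ∈ (S' : Subgroup (GL (Fin n) K)) := hS' hy
  rw [← hg, Sylow.coe_subgroup_smul, Subgroup.mem_pointwise_smul_iff_inv_smul_mem] at h1
  have h2 : (MulAut.conj g)⁻¹ • y ∈ Q' := h1
  obtain ⟨z, _, hz⟩ := h2
  have h3 : g⁻¹ * y * g = (MulAut.conj g)⁻¹ • y := by
    simp [MulAut.smul_def]
  rw [h3, ← hz]
  exact z.2

end Cfsg.Agent.Lib.CamPair.LiftRow
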