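import Mathlib
import Cfsg.Agent.Lib.CamPair.Defs
import Cfsg.Agent.Lib.CamPair.LiftRow

/-!
# Lifting a coprime `r`-group action on an elementary abelian group to a complex character
(for S4141).
-/

set_option autoImplicit false

namespace Cfsg.Agent.Lib.CamPair

open Cfsg Cfsg.Agent.Lib.Char.Basic Matrix

universe u v

namespace LiftAux

open LiftRow

/-- A finite field embeds multiplicatively in `ℂ`. -/
theorem exists_theta (K : Type*) [Field K] [Finite K] : ∃ f : K →*₀ ℂ, Function.Injective f := by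
  classical
  haveI := Fintype.ofFinite K
  let m := Nat.card Kˣ
  haveI : NeZero m := ⟨Nat.card_pos.ne'⟩
  have hc : Nat.card Kˣ = Nat.card (rootsOfUnity m ℂ) := by
    rw [Complex.card_rootsOfUnity]
  let e : Kˣ ≃* rootsOfUnity m ℂ := mulEquivOfCyclicCardEq hc
  let θ : Kˣ →* ℂˣ := (rootsOfUnity m ℂ).subtype.comp e.toMonoidHom
  have hθ : Function.Injective θ := (Subgroup.subtype_injective _).comp e.injective
  let F : K → ℂ := fun c => if h : c = 0 then 0 else (θ (Units.mk0 c h) : ℂ)
  have hF0 : ∀ c (h : c ≠ 0), F c = (θ (Units.mk0 c h) : ℂ) := fun c h => dif_neg h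
  have hFz : F 0 = 0 := dif_pos rfl
  refine ⟨{ toFun := F, map_zero' := hFz, map_one' := ?_, map_mul' := ?_ }, ?_⟩
  · rw [hF0 1 one_ne_zero]
    have : Units.mk0 (1 : K) one_ne_zero = 1 := Units.ext rfl
    rw [this, map_one, Units.val_one]
  · intro a b
    by_cases ha : a = 0
    · subst ha; rw [zero_mul, hFz, zero_mul]
    by_cases hb : b = 0
    · subst hb; rw [mul_zero, hFz, mul_zero]
    rw [hF0 _ (mul_ne_zero ha hb), hF0 a ha, hF0 b hb, ← Units.val_mul, ← map_mul]
    congr 2
    exact Units.ext rfl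
  · intro a b (h : F a = F b)
    by_cases ha : a = 0
    · subst ha
      by_contra hb
      rw [hFz, hF0 b (Ne.symm hb)] at h
      exact (θ _).ne_zero h.symm
    by_cases hb : b = 0
    · subst hb
      rw [hFz, hF0 a ha] at h
      exact absurd h (θ _).ne_zero
    rw [hF0 a ha, hF0 b hb] at h
    have := hθ (Units.ext h)
    exact congrArg Units.val this

theorem exists_basis {s : ℕ} [Fact s.Prime] (V : Type*) [AddCommGroup V] [Module (ZMod s) V]
    [Finite V] : ∃ n : ℕ, Nonempty (Module.Basis (Fin n) (ZMod s) V) :=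
  ⟨_, ⟨Module.finBasis (ZMod s) V⟩⟩

variable {R : Type u} [Group R] {K : Type*} [Field K] {n : ℕ}

/-- The complex representation attached to a row-monomial matrix representation. -/
noncomputable def cplx (M : R →* Matrix (Fin n) (Fin n) K) (hM : ∀ x, RowMon (M x)) (f : K →*₀ ℂ) :
    Representation ℂ R (Fin n → ℂ) where
  toFun x := Matrix.toLin' ((M x).map f)
  map_one' := by
    rw [map_one, Matrix.map_one f (map_zero f) (map_one f), Matrix.toLin'_one]
    rfl
  map_mul' x y := by
    rw [map_mul, (hM x).map_mul f, Matrix.toLin'_mul]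
    rfl

lemma cplx_character (M : R →* Matrix (Fin n) (Fin n) K) (hM : ∀ x, RowMon (M x)) (f : K →*₀ ℂ)
    (x : R) : (cplx M hM f).character x = ∑ i, f (M x i i) := by
  change LinearMap.trace ℂ _ (Matrix.toLin' ((M x).map f)) = _
  rw [Matrix.trace_toLin'_eq]
  rfl

lemma entry_mul (M : R →* Matrix (Fin n) (Fin n) K) (hM : ∀ x, RowMon (M x)) {y : R} {i : Fin n}
    (hy : M y i i ≠ 0) (x : R) : M (y * x) i i = M y i i * M x i i := by
  rw [map_mul, (hM y).mul_apply _ hy]

/-- If the sum over `X` is nonzero, then all nonzero entries are `1`. -/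
lemma entry_eq_one [Finite R] (M : R →* Matrix (Fin n) (Fin n) K) (hM : ∀ x, RowMon (M x)) (f : K →*₀ ℂ)
    (hf : Function.Injective f) (X : Subgroup R) [Fintype X] (i : Fin n)
    (h : ∑ x : X, f (M (x : R) i i) ≠ 0) (y : X) (hy : M (y : R) i i ≠ 0) : M (y : R) i i = 1 := by
  have h1 : ∑ x : X, f (M (x : R) i i) = f (M (y : R) i i) * ∑ x : X, f (M (x : R) i i) := by
    conv_lhs => rw [← Equiv.sum_comp (Equiv.mulLeft y)]
    rw [Finset.mul_sum]
    refine Finset.sum_congr rfl fun x _ => ?_
    have : ((Equiv.mulLeft y x : X) : R) = y * x := rfl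
    rw [this, entry_mul M hM hy, map_mul]
  have h2 : f (M (y : R) i i) = 1 := mul_right_cancel₀ h (by rw [one_mul]; exact h1.symm)
  exact hf (by rw [h2, map_one])

/-- The sum of the `(i,i)` entries is a nonzero power of `r`. -/
lemma sum_entry_ne_zero [Finite R] {r : ℕ} [Fact r.Prime] (hrK : (r : K) ≠ 0) (hR : IsPGroup r R)
    (M : R →* Matrix (Fin n) (Fin n) K) (hM : ∀ x, RowMon (M x)) (f : K →*₀ ℂ)
    (hf : Function.Injective f) (X : Subgroup R) [Fintype X] (i : Fin n)
    (h : ∑ x : X, f (M (x : R) i i) ≠ 0) : ∑ x : X, M (x : R) i i ≠ 0 := by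
  classical
  let T : Subgroup X := subgroupOfSubmonoid
    { carrier := {x : X | M (x : R) i i ≠ 0}
      one_mem' := by
        change M ((1 : X) : R) i i ≠ 0
        rw [Subgroup.coe_one, map_one, Matrix.one_apply_eq]
        exact one_ne_zero
      mul_mem' := by
        intro a b (ha : M (a : R) i i ≠ 0) (hb : M (b : R) i i ≠ 0)
        change M ((a * b : X) : R) i i ≠ 0
        rw [Subgroup.coe_mul, entry_mul M hM ha]
        exact mul_ne_zero ha hb }
  have hT : ∀ x : X, x ∈ T ↔ M (x : R) i i ≠ 0 := fun x => Iff.rfl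
  have h1 : ∀ x : X, M (x : R) i i = if x ∈ T then 1 else 0 := by
    intro x
    split_ifs with hx
    · exact entry_eq_one M hM f hf X i h x hx
    · by_contra h'
      exact hx h'
  have h2 : ∑ x : X, M (x : R) i i = (Nat.card T : K) := by
    rw [Finset.sum_congr rfl fun x _ => h1 x, Finset.sum_boole, Nat.card_eq_fintype_card]
    congr 1
    rw [Fintype.card_subtype]
  rw [h2]
  have hTp : IsPGroup r T := (IsPGroup.to_subgroup hR X).to_subgroup T
  obtain ⟨b, hb⟩ := IsPGroup.iff_card.mp hTp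
  rw [hb, Nat.cast_pow]
  exact pow_ne_zero _ hrK

/-- The action on `Additive A` as `F_s`-linear maps. -/
noncomputable def endHom {s : ℕ} [Fact s.Prime] {A : Type*} [CommGroup A]
    [Module (ZMod s) (Additive A)] (φ : R →* MulAut A) : R →* Module.End (ZMod s) (Additive A) where
  toFun x := AddMonoidHom.toZModLinearMap s (MonoidHom.toAdditive (φ x).toMonoidHom)
  map_one' := by
    apply LinearMap.ext
    intro v
    rw [Module.End.one_apply]
    change Additive.ofMul (φ 1 (Additive.toMul v)) = v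
    rw [map_one]
    rfl
  map_mul' := by
    intro x y
    apply LinearMap.ext
    intro v
    change Additive.ofMul (φ (x * y) (Additive.toMul v)) = _
    rw [map_mul]
    rfl

end LiftAux

open LiftAux LiftRow in
/-- Lifting, module form. -/
theorem exists_lift_mod {R : Type u} [Group R] [Finite R] {r : ℕ} [Fact r.Prime] (hodd : r ≠ 2)
    (hR : IsPGroup r R) {s : ℕ} [hs : Fact s.Prime] (hrs : s ≠ r) {V : Type v} [AddCommGroup V]
    [Module (ZMod s) V] [Finite V] [Nontrivial V] (ψ : R →* Module.End (ZMod s) V) :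
    ∃ Ξ : R → ℂ, IsCharacter R Ξ ∧ Ξ 1 ≠ 0 ∧
      ∀ X : Subgroup R, (∀ v : V, (∀ x ∈ X, ψ x v = v) → v = 0) → ∑ᶠ x : X, Ξ x = 0 := by
  classical
  have hr : r.Prime := Fact.out
  have hs' : s.Prime := Fact.out
  obtain ⟨nn, ⟨b⟩⟩ := exists_basis (s := s) V
  have hnn : nn ≠ 0 := by
    intro h0
    obtain ⟨v, hv⟩ := exists_ne (0 : V)
    apply hv
    rw [← b.sum_repr v]
    apply Finset.sum_eq_zero
    intro i _
    have := i.2
    omega
  let M₀ : R →* Matrix (Fin nn) (Fin nn) (ZMod s) :=
    (LinearMap.toMatrixAlgEquiv b).toRingEquiv.toMonoidHom.comp ψ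
  -- the field `K`
  let K := GaloisField s (r - 1)
  haveI : Finite K := Nat.finite_of_card_ne_zero (by
    rw [GaloisField.card s (r - 1) (by have := hr.two_le; omega)]
    exact pow_ne_zero _ hs'.ne_zero)
  haveI : Fintype K := Fintype.ofFinite K
  have hcardK : Fintype.card K = s ^ (r - 1) := by
    rw [← Nat.card_eq_fintype_card, GaloisField.card s (r - 1) (by have := hr.two_le; omega)]
  have hq : r ∣ Fintype.card K - 1 := by
    rw [hcardK]
    have h1 : ((s ^ (r - 1) : ℕ) : ZMod r) = 1 := by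
      rw [Nat.cast_pow]
      haveI : Fact r.Prime := ⟨hr⟩
      apply ZMod.pow_card_sub_one_eq_one
      intro h0
      rw [ZMod.natCast_eq_zero_iff] at h0
      exact hrs ((Nat.prime_dvd_prime_iff_eq hr hs').mp h0).symm
    rw [← ZMod.natCast_eq_zero_iff, Nat.cast_sub (Nat.one_le_pow _ _ hs'.pos), h1, Nat.cast_one, sub_self]
  haveI : CharP K s := charP_of_injective_algebraMap (algebraMap (ZMod s) K).injective s
  have hrK : (r : K) ≠ 0 := by
    intro h0
    rw [CharP.cast_eq_zero_iff K s r] at h0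
    exact hrs ((Nat.prime_dvd_prime_iff_eq hs' hr).mp h0)
  let N : R →* Matrix (Fin nn) (Fin nn) K :=
    ((algebraMap (ZMod s) K).mapMatrix).toMonoidHom.comp M₀
  let N' : R →* GL (Fin nn) K := N.toHomUnits
  have hP : IsPGroup r N'.range := IsPGroup.of_surjective hR N'.rangeRestrict N'.rangeRestrict_surjective
  obtain ⟨g, hg⟩ := exists_conj_mono hodd hq N'.range hP
  let L : R →* GL (Fin nn) K := (MulAut.conj g⁻¹).toMonoidHom.comp N'
  have hL : ∀ x, L x = g⁻¹ * N' x * g := by
    intro x
    simp [L]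
  let Mm : R →* Matrix (Fin nn) (Fin nn) K := (Units.coeHom _).comp L
  have hMm : ∀ x, Mm x = (g⁻¹ : GL (Fin nn) K).1 * N x * g.1 := by
    intro x
    change ((L x : GL (Fin nn) K) : Matrix (Fin nn) (Fin nn) K) = _
    rw [hL, Units.val_mul, Units.val_mul]
    rfl
  have hM : ∀ x, RowMon (Mm x) := by
    intro x
    change RowMon ((L x : GL (Fin nn) K) : Matrix (Fin nn) (Fin nn) K)
    rw [hL]
    exact hg _ ⟨x, rfl⟩
  obtain ⟨f, hf⟩ := exists_theta K
  refine ⟨(cplx Mm hM f).character, ⟨nn, cplx Mm hM f, rfl⟩, ?_, ?_⟩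
  · rw [cplx_character, map_one]
    simp only [Matrix.one_apply_eq, map_one, Finset.sum_const, Finset.card_univ, Fintype.card_fin,
      nsmul_eq_mul, mul_one]
    exact_mod_cast hnn
  · intro X hX
    haveI : Fintype X := Fintype.ofFinite X
    rw [finsum_eq_sum_of_fintype]
    by_contra hne
    simp only [cplx_character] at hne
    rw [Finset.sum_comm] at hne
    obtain ⟨i, _, hi⟩ := Finset.exists_ne_zero_of_sum_ne_zero hne
    have h1 := sum_entry_ne_zero hrK hR Mm hM f hf X i hi
    -- the averaging endomorphism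
    let E : Module.End (ZMod s) V := ∑ x : X, ψ (x : R)
    have hE : E ≠ 0 := by
      intro hE0
      apply h1
      have h2 : ∑ x : X, N (x : R) = 0 := by
        have h3 : ∑ x : X, M₀ (x : R) = 0 := by
          have : LinearMap.toMatrixAlgEquiv b E = ∑ x : X, M₀ (x : R) := by
            change LinearMap.toMatrixAlgEquiv b (∑ x : X, ψ (x : R)) = _
            rw [map_sum]
            rfl
          rw [← this, hE0, map_zero]
        have : ∑ x : X, N (x : R) = (algebraMap (ZMod s) K).mapMatrix (∑ x : X, M₀ (x : R)) := by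
          rw [map_sum]
          rfl
        rw [this, h3, map_zero]
      have h4 : ∑ x : X, Mm (x : R) = 0 := by
        simp only [hMm]
        rw [← Finset.sum_mul, ← Finset.mul_sum, h2, mul_zero, zero_mul]
      have := congrFun (congrFun h4 i) i
      simpa [Matrix.sum_apply] using this
    obtain ⟨v, hv⟩ : ∃ v, E v ≠ 0 := by
      by_contra hh
      push Not at hh
      exact hE (LinearMap.ext hh)
    apply hv
    have hfix : ∀ y ∈ X, ψ y (E v) = E v := by
      intro y hy
      have h5 : ψ y * E = E := by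
        change ψ y * ∑ x : X, ψ (x : R) = ∑ x : X, ψ (x : R)
        rw [Finset.mul_sum]
        conv_rhs => rw [← Equiv.sum_comp (Equiv.mulLeft (⟨y, hy⟩ : X))]
        refine Finset.sum_congr rfl fun x _ => ?_
        rw [← map_mul]
        rfl
      exact congrFun (congrArg DFunLike.coe h5) v
    exact hX _ hfix

theorem exists_lift_aux {R : Type u} [Group R] [Finite R] {r : ℕ} [Fact r.Prime] (hodd : r ≠ 2)
    (hR : IsPGroup r R) {A : Type v} [CommGroup A] [Finite A] [Nontrivial A] {s : ℕ} [hs : Fact s.Prime]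
    (hrs : s ≠ r) [Module (ZMod s) (Additive A)] (φ : R →* MulAut A) :
    ∃ Ξ : R → ℂ, IsCharacter R Ξ ∧ Ξ 1 ≠ 0 ∧
      ∀ X : Subgroup R, (∀ a : A, (∀ x ∈ X, φ x a = a) → a = 1) → ∑ᶠ x : X, Ξ x = 0 := by
  let ψ : R →* Module.End (ZMod s) (Additive A) := LiftAux.endHom φ
  obtain ⟨Ξ, h1, h2, h3⟩ := exists_lift_mod hodd hR hrs ψ
  refine ⟨Ξ, h1, h2, fun X hX => h3 X fun v hv => ?_⟩
  exact congrArg Additive.ofMul (hX (Additive.toMul v) fun x hx => congrArg Additive.toMul (hv x hx))

/-- **Lifting.** -/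
theorem exists_lift {R : Type u} [Group R] [Finite R] {r : ℕ} [Fact r.Prime] (hodd : r ≠ 2)
    (hR : IsPGroup r R) {A : Type v} [CommGroup A] [Finite A] [Nontrivial A] {s : ℕ} [hs : Fact s.Prime]
    (hrs : s ≠ r) (hA : ∀ a : A, a ^ s = 1) (φ : R →* MulAut A) :
    ∃ Ξ : R → ℂ, IsCharacter R Ξ ∧ Ξ 1 ≠ 0 ∧
      ∀ X : Subgroup R, (∀ a : A, (∀ x ∈ X, φ x a = a) → a = 1) → ∑ᶠ x : X, Ξ x = 0 := by
  letI : Module (ZMod s) (Additive A) := AddCommGroup.zmodModule (by
    intro x
    exact congrArg Additive.ofMul (hA (Additive.toMul x)))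
  exact exists_lift_aux hodd hR hrs φ

end Cfsg.Agent.Lib.CamPair
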