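import Mathlib
import Cfsg.Agent.Lib.CamPair.Defs
import Cfsg.Agent.S0145

set_option autoImplicit false

namespace Cfsg.Agent.Lib.CamPair

open Cfsg Cfsg.Agent.Lib.Char.Basic Cfsg.Agent.Lib.Char.Ortho Cfsg.Agent.Lib.Char.Clifford
open scoped ComplexConjugate

universe u

variable {R : Type u} [Group R] [Finite R]

theorem card_fixed_irr (U : Subgroup R) [hU : U.Normal] (w : R) (c : ℕ)
    (h : ∀ n ∈ U, Nat.card (Subgroup.centralizer ({n * w} : Set R) ⊓ U : Subgroup R) = c) :
    Nat.card {ρ : IrrCharacter U // conjFun U w (ρ : U → ℂ) = ρ} = c := by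
  classical
  have := Fintype.ofFinite R
  have := Fintype.ofFinite U
  have hUc : (Nat.card U : ℂ) ≠ 0 := by
    have : Nat.card U ≠ 0 := Nat.card_pos.ne'
    exact_mod_cast this
  let v : U → U := fun u => ⟨w * u * w⁻¹, hU.conj_mem u u.2 w⟩
  -- column orthogonality
  have hterm : ∀ u : U, ∑ ρ : IrrCharacter U, (ρ : U → ℂ) u * conj ((ρ : U → ℂ) (v u))
      = ((Finset.univ.filter fun n : U => n * v u * n⁻¹ = u).card : ℂ) := by
    intro u
    have h2 := Cfsg.Agent.S0145.result (G := U) u (v u)
    rw [Cfsg.Agent.Lib.Char.Ortho.finsum_irr_eq_sum] at h2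
    by_cases hc : IsConj u (v u)
    · rw [h2.1 hc]
      obtain ⟨c0, hc0⟩ := isConj_iff.1 hc
      congr 1
      rw [← Fintype.card_subtype, ← Nat.card_eq_fintype_card]
      have hmem : ∀ a : U, a ∈ Subgroup.centralizer ({u} : Set U) ↔ a * u = u * a := by
        intro a
        rw [Subgroup.mem_centralizer_iff]
        constructor
        · intro h; exact (h u rfl).symm
        · rintro h _ rfl; exact h.symm
      refine Nat.card_congr ((Equiv.mulRight c0⁻¹).subtypeEquiv (fun a => ?_))
      rw [hmem, Equiv.coe_mulRight, ← hc0]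
      have h5 : a * c0⁻¹ * (c0 * u * c0⁻¹) * (a * c0⁻¹)⁻¹ = a * u * a⁻¹ := by group
      rw [h5, mul_inv_eq_iff_eq_mul]
    · rw [h2.2 hc]
      symm
      rw [Nat.cast_eq_zero, Finset.card_eq_zero, Finset.filter_eq_empty_iff]
      intro n _ hn
      apply hc
      exact (isConj_iff.2 ⟨n, hn⟩).symm
  -- double counting
  have hdouble : ∑ u : U, (Finset.univ.filter fun n : U => n * v u * n⁻¹ = u).card = Nat.card U * c := by
    have h1 : ∑ u : U, (Finset.univ.filter fun n : U => n * v u * n⁻¹ = u).card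
        = ∑ n : U, (Finset.univ.filter fun u : U => n * v u * n⁻¹ = u).card := by
      simp only [Finset.card_filter]
      exact Finset.sum_comm
    rw [h1]
    have h2 : ∀ n : U, (Finset.univ.filter fun u : U => n * v u * n⁻¹ = u).card = c := by
      intro n
      rw [← h n n.2, ← Fintype.card_subtype, ← Nat.card_eq_fintype_card]
      have hiff : ∀ u : U, n * v u * n⁻¹ = u ↔
          (u : R) ∈ (Subgroup.centralizer ({(n : R) * w} : Set R) ⊓ U : Subgroup R) := by
        intro u
        rw [Subgroup.mem_inf, Subgroup.mem_centralizer_iff]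
        constructor
        · intro hn
          refine ⟨?_, u.2⟩
          rintro _ rfl
          have h3 : (n : R) * (w * u * w⁻¹) * (n : R)⁻¹ = u := congrArg Subtype.val hn
          calc (n : R) * w * u = ((n : R) * (w * u * w⁻¹) * (n : R)⁻¹) * (n * w) := by group
            _ = u * (n * w) := by rw [h3]
        · rintro ⟨hc, _⟩
          apply Subtype.ext
          show (n : R) * (w * u * w⁻¹) * (n : R)⁻¹ = u
          have h3 := hc _ rfl
          calc (n : R) * (w * u * w⁻¹) * (n : R)⁻¹ = ((n : R) * w * u) * ((n : R) * w)⁻¹ := by group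
            _ = u := by rw [h3]; group
      exact Nat.card_congr
        { toFun := fun a => ⟨a, (hiff a).1 a.2⟩
          invFun := fun a => ⟨⟨a, a.2.2⟩, (hiff _).2 a.2⟩
          left_inv := fun a => Subtype.ext (Subtype.ext rfl)
          right_inv := fun a => Subtype.ext rfl }
    simp only [h2, Finset.sum_const, Finset.card_univ, smul_eq_mul, Nat.card_eq_fintype_card]
  -- the count
  have hcount : ∑ ρ : IrrCharacter U, classInner (ρ : U → ℂ) (conjFun U w (ρ : U → ℂ)) = (c : ℂ) := by
    simp only [Cfsg.Agent.Lib.Char.Induced.classInner_def]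
    rw [← Finset.mul_sum, Finset.sum_comm]
    have : ∀ u : U, ∑ ρ : IrrCharacter U, (ρ : U → ℂ) u * conj (conjFun U w (ρ : U → ℂ) u)
        = ((Finset.univ.filter fun n : U => n * v u * n⁻¹ = u).card : ℂ) := fun u => hterm u
    simp_rw [this]
    rw [← Nat.cast_sum, hdouble, Nat.cast_mul, ← mul_assoc, inv_mul_cancel₀ hUc, one_mul]
  have hone : ∑ ρ : IrrCharacter U, classInner (ρ : U → ℂ) (conjFun U w (ρ : U → ℂ))
      = ∑ ρ : IrrCharacter U, if conjFun U w (ρ : U → ℂ) = (ρ : U → ℂ) then (1 : ℂ) else 0 := by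
    refine Finset.sum_congr rfl fun ρ _ => ?_
    rw [Cfsg.Agent.Lib.Char.Ortho.classInner_irr ρ.2 (isIrr_conjFun U w ρ.2)]
    simp only [eq_comm]
  rw [hone, Finset.sum_boole] at hcount
  have hcard : (Finset.univ.filter (fun ρ : IrrCharacter U =>
      conjFun U w (ρ : U → ℂ) = (ρ : U → ℂ))).card = c := by exact_mod_cast hcount
  rw [Nat.card_eq_fintype_card, Fintype.card_subtype]
  exact hcard

end Cfsg.Agent.Lib.CamPair
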