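import Mathlib
import Cfsg.Agent.Lib.CamPair.Defs
import Cfsg.Agent.Lib.Transfer.Camina
import Cfsg.Agent.Lib.PGroup.Basic

/-!
# Adaptors for `no_regular_irr`.
-/

set_option autoImplicit false
set_option linter.unusedSectionVars false
set_option linter.style.haveILetI false

namespace Cfsg.Agent.Lib.CamPair

open Cfsg Cfsg.Agent.Lib.Char.Basic Cfsg.Agent.Lib.Char.Ortho Cfsg.Agent.Lib.Char.Clifford
  Cfsg.Agent.Lib.Char.CliffordCorr
open Subgroup

universe u

variable {R : Type u} [Group R] [Finite R] {r : ℕ} [hr : Fact r.Prime]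

/-- Between two normal subgroups of an `r`-group there is a normal subgroup with quotient of order `r`
over the smaller one. -/
theorem exists_normal_between (hR : IsPGroup r R) {U T : Subgroup R} [hU : U.Normal] [hT : T.Normal]
    (hUT : U < T) : ∃ V : Subgroup R, V.Normal ∧ U ≤ V ∧ V ≤ T ∧ Nat.card V = r * Nat.card U := by
  classical
  let f := QuotientGroup.mk' U
  have hQ : IsPGroup r (R ⧸ U) := hR.to_quotient U
  have hne : T.map f ≠ ⊥ := by
    intro h
    have : T ≤ U := by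
      intro t ht
      have h1 : f t ∈ T.map f := mem_map_of_mem f ht
      rw [h, mem_bot] at h1
      exact (QuotientGroup.eq_one_iff t).1 h1
    exact absurd this (not_le_of_gt hUT)
  haveI : (T.map f).Normal := hT.map f (QuotientGroup.mk'_surjective U)
  have h2 := Cfsg.Agent.Lib.PGroup.Basic.inf_center_ne_bot hQ hne
  have hW : IsPGroup r (T.map f ⊓ center (R ⧸ U) : Subgroup (R ⧸ U)) := hQ.to_subgroup _
  have hdvd : r ∣ Nat.card (T.map f ⊓ center (R ⧸ U) : Subgroup (R ⧸ U)) := by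
    rcases hW.card_eq_or_dvd with h | h
    · exact absurd (Subgroup.eq_bot_of_card_eq _ h) h2
    · exact h
  obtain ⟨w, hw⟩ := exists_prime_orderOf_dvd_card' r hdvd
  have hw' : orderOf (w : R ⧸ U) = r := by rw [Subgroup.orderOf_coe]; exact hw
  have hwT : (w : R ⧸ U) ∈ T.map f := w.2.1
  have hwc : (w : R ⧸ U) ∈ center (R ⧸ U) := w.2.2
  refine ⟨(zpowers (w : R ⧸ U)).comap f, ?_, ?_, ?_, ?_⟩
  · haveI : (zpowers (w : R ⧸ U)).Normal := by
      refine ⟨fun a ha g => ?_⟩
      obtain ⟨k, rfl⟩ := mem_zpowers_iff.1 ha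
      have h30 : Commute g (w : R ⧸ U) := Subgroup.mem_center_iff.1 hwc g
      have h3 : Commute g ((w : R ⧸ U) ^ k) := h30.zpow_right k
      rw [h3.eq]
      simp
    exact Subgroup.Normal.comap this f
  · intro u hu
    show f u ∈ zpowers (w : R ⧸ U)
    have : f u = 1 := (QuotientGroup.eq_one_iff u).2 hu
    rw [this]
    exact one_mem _
  · intro g hg
    have hg : f g ∈ zpowers (w : R ⧸ U) := hg
    have h3 : zpowers (w : R ⧸ U) ≤ T.map f := (zpowers_le).2 hwT
    obtain ⟨t, ht, hte⟩ := h3 hg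
    have h4 : t⁻¹ * g ∈ U := by
      have : (t : R ⧸ U) = g := hte
      exact QuotientGroup.eq.1 this
    have h5 : g = t * (t⁻¹ * g) := by group
    rw [h5]
    exact T.mul_mem ht (le_of_lt hUT h4)
  · have h3 := Cfsg.Agent.Lib.Transfer.Camina.card_eq_map_mul f ((zpowers (w : R ⧸ U)).comap f)
    rw [Subgroup.map_comap_eq_self_of_surjective (QuotientGroup.mk'_surjective U)] at h3
    have h4 : ((zpowers (w : R ⧸ U)).comap f ⊓ f.ker : Subgroup R) = U := by
      rw [QuotientGroup.ker_mk']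
      apply le_antisymm inf_le_right
      intro u hu
      refine ⟨?_, hu⟩
      show f u ∈ zpowers (w : R ⧸ U)
      have : f u = 1 := (QuotientGroup.eq_one_iff u).2 hu
      rw [this]
      exact one_mem _
    rw [h4, Nat.card_zpowers, hw'] at h3
    exact h3

section Cliff

variable (T U : Subgroup R) [hU : U.Normal] (hUT : U ≤ T)

include hUT in
/-- Constituents of the restriction to `U` of an irreducible character of `T ≥ U` are `T`-conjugate. -/
theorem exists_conj_res [Fintype U] {ψ : T → ℂ} (hψ : IsIrrCharacter T ψ) {ρ ρ' : U → ℂ}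
    (hρ : IsIrrCharacter U ρ) (hρ' : IsIrrCharacter U ρ')
    (h1 : classInner (fun n : U => ψ ⟨n, hUT n.2⟩) ρ ≠ 0)
    (h2 : classInner (fun n : U => ψ ⟨n, hUT n.2⟩) ρ' ≠ 0) :
    ∃ t ∈ T, ρ' = conjFun U t ρ := by
  classical
  letI : Fintype T := Fintype.ofFinite _
  letI : Fintype (U.subgroupOf T) := Fintype.ofFinite _
  haveI : (U.subgroupOf T).Normal := hU.subgroupOf T
  let e : U.subgroupOf T ≃* U := Subgroup.subgroupOfEquivOfLe hUT
  let ρ₁ : U.subgroupOf T → ℂ := fun x => ρ (e x)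
  let ρ₂ : U.subgroupOf T → ℂ := fun x => ρ' (e x)
  have hρ₁ : IsIrrCharacter (U.subgroupOf T) ρ₁ :=
    isIrrCharacter_comp_surjective hρ e.toMonoidHom e.surjective
  have hρ₂ : IsIrrCharacter (U.subgroupOf T) ρ₂ :=
    isIrrCharacter_comp_surjective hρ' e.toMonoidHom e.surjective
  have e1 : classInner (fun n : U.subgroupOf T => ψ n) ρ₁ =
      classInner (fun n : U => ψ ⟨n, hUT n.2⟩) ρ :=
    classInner_comp_equiv e (fun n : U => ψ ⟨n, hUT n.2⟩) ρ
  have e2 : classInner (fun n : U.subgroupOf T => ψ n) ρ₂ =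
      classInner (fun n : U => ψ ⟨n, hUT n.2⟩) ρ' :=
    classInner_comp_equiv e (fun n : U => ψ ⟨n, hUT n.2⟩) ρ'
  obtain ⟨t, ht⟩ := exists_conj_of_classInner_ne_zero (U.subgroupOf T) hψ hρ₁ hρ₂
    (by rwa [e1]) (by rwa [e2])
  refine ⟨t, t.2, ?_⟩
  funext n
  have h3 := congrFun ht (e.symm n)
  simp only [ρ₂, MulEquiv.apply_symm_apply] at h3
  rw [h3, conjFun_apply, conjFun_apply]
  simp only [ρ₁]
  congr 1

include hUT in
/-- Two irreducible characters of `T` whose restrictions to `U` share a constituent have proportional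
restrictions. -/
theorem res_prop [Fintype U] {ψ ψ' : T → ℂ} (hψ : IsIrrCharacter T ψ) (hψ' : IsIrrCharacter T ψ')
    {ρ : U → ℂ} (hρ : IsIrrCharacter U ρ)
    (h1 : classInner (fun n : U => ψ ⟨n, hUT n.2⟩) ρ ≠ 0)
    (h2 : classInner (fun n : U => ψ' ⟨n, hUT n.2⟩) ρ ≠ 0) (u : U) :
    ψ' 1 * ψ ⟨u, hUT u.2⟩ = ψ 1 * ψ' ⟨u, hUT u.2⟩ := by
  classical
  letI : Fintype T := Fintype.ofFinite _
  letI : Fintype (U.subgroupOf T) := Fintype.ofFinite _
  haveI : (U.subgroupOf T).Normal := hU.subgroupOf T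
  let e : U.subgroupOf T ≃* U := Subgroup.subgroupOfEquivOfLe hUT
  let ρ₁ : U.subgroupOf T → ℂ := fun x => ρ (e x)
  have hρ₁ : IsIrrCharacter (U.subgroupOf T) ρ₁ :=
    isIrrCharacter_comp_surjective hρ e.toMonoidHom e.surjective
  have e1 : classInner (fun n : U.subgroupOf T => ψ n) ρ₁ =
      classInner (fun n : U => ψ ⟨n, hUT n.2⟩) ρ :=
    classInner_comp_equiv e (fun n : U => ψ ⟨n, hUT n.2⟩) ρ
  have e2 : classInner (fun n : U.subgroupOf T => ψ' n) ρ₁ =
      classInner (fun n : U => ψ' ⟨n, hUT n.2⟩) ρ :=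
    classInner_comp_equiv e (fun n : U => ψ' ⟨n, hUT n.2⟩) ρ
  have h3 := res_eq_smul_finsum (U.subgroupOf T) hψ hρ₁ (by rwa [e1])
  have h4 := res_eq_smul_finsum (U.subgroupOf T) hψ' hρ₁ (by rwa [e2])
  set Sg := ∑ᶠ ψ ∈ orbitSet (U.subgroupOf T) ρ₁, ψ with hSg
  set a := classInner (fun n : U.subgroupOf T => ψ n) ρ₁
  set b := classInner (fun n : U.subgroupOf T => ψ' n) ρ₁
  have h5 := congrFun h3 1
  have h6 := congrFun h4 1
  have h7 := congrFun h3 (e.symm u)
  have h8 := congrFun h4 (e.symm u)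
  simp only [Pi.smul_apply, smul_eq_mul] at h5 h6 h7 h8
  have hu : (((e.symm u : U.subgroupOf T) : T)) = ⟨u, hUT u.2⟩ := by
    apply Subtype.ext
    rfl
  rw [hu] at h7 h8
  have h1' : ((1 : U.subgroupOf T) : T) = 1 := rfl
  rw [h1'] at h5 h6
  rw [h5, h6, h7, h8]
  ring

end Cliff

end Cfsg.Agent.Lib.CamPair
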