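import Mathlib
import Cfsg.Agent.Lib.CamPair.Defs
import Cfsg.Agent.Lib.Char.IndRep

/-!
# Camina pairs (S4141), piece A3: the index of the stabilizer of a restriction to a normal subgroup.
-/

set_option autoImplicit false

namespace Cfsg.Agent.Lib.CamPair

open Cfsg Cfsg.Agent.Lib.Char.Basic Cfsg.Agent.Lib.Char.Ortho Cfsg.Agent.Lib.Char.Clifford
open Cfsg.Agent.Lib.Char.Induced Cfsg.Agent.Lib.Char.CliffordCorr Cfsg.Agent.Lib.Char.IndRep

universe u

namespace StabIndex

/-- Two irreducible characters of the same degree whose restrictions to a normal subgroup have a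
common constituent have the same restriction. -/
theorem res_eq_of_inner_ne {G : Type u} [Group G] [Fintype G] (N : Subgroup G) [N.Normal] [Fintype N]
    {θ₁ θ₂ : G → ℂ} (h₁ : IsIrrCharacter G θ₁) (h₂ : IsIrrCharacter G θ₂) (h1 : θ₁ 1 = θ₂ 1)
    (h : classInner (fun n : N => θ₁ n) (fun n : N => θ₂ n) ≠ 0) :
    (fun n : N => θ₁ n) = fun n : N => θ₂ n := by
  have hc₁ := isCharacter_restrict (isCharacter_of_isIrrCharacter h₁) N
  have hc₂ := isCharacter_restrict (isCharacter_of_isIrrCharacter h₂) N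
  rw [classInner_eq_sum_mul hc₁ hc₂] at h
  obtain ⟨χ, -, hχ⟩ := Finset.exists_ne_zero_of_sum_ne_zero h
  have hχ1 : classInner (fun n : N => θ₁ n) (χ : N → ℂ) ≠ 0 := left_ne_zero_of_mul hχ
  have hχ2 : classInner (fun n : N => θ₂ n) (χ : N → ℂ) ≠ 0 := by
    intro h0
    apply right_ne_zero_of_mul hχ
    rw [← classInner_conj_symm, h0]
    simp
  have e₁ := res_eq_smul_finsum N h₁ χ.2 hχ1
  have e₂ := res_eq_smul_finsum N h₂ χ.2 hχ2
  set S : N → ℂ := ∑ᶠ ψ ∈ orbitSet N (χ : N → ℂ), ψ with hS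
  have v₁ := congrFun e₁ 1
  have v₂ := congrFun e₂ 1
  simp only [Pi.smul_apply, smul_eq_mul, Subgroup.coe_one] at v₁ v₂
  have hS1 : S 1 ≠ 0 := by
    intro h0
    rw [h0, mul_zero] at v₁
    exact irr_apply_one_ne_zero h₁ v₁
  have ha : classInner (fun n : N => θ₁ n) (χ : N → ℂ) = classInner (fun n : N => θ₂ n) (χ : N → ℂ) := by
    apply mul_right_cancel₀ hS1
    rw [← v₁, ← v₂, h1]
  rw [e₁, e₂, ha]

/-- Counting lemma: pairwise orthogonal characters agreeing on a normal subgroup. -/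
theorem card_mul_le {V : Type u} [Group V] [Fintype V] (U : Subgroup V) [U.Normal] [Fintype U]
    {ι : Type*} (s : Finset ι) (ω : ι → V → ℂ) (hω : ∀ i ∈ s, IsCharacter V (ω i))
    (hU : ∀ i ∈ s, ∀ j ∈ s, ∀ u : U, ω i u = ω j u) (h1 : ∀ i ∈ s, ω i 1 ≠ 0)
    (horth : ∀ i ∈ s, ∀ j ∈ s, i ≠ j → classInner (ω i) (ω j) = 0) :
    s.card * Nat.card U ≤ Nat.card V := by
  classical
  rcases s.eq_empty_or_nonempty with rfl | ⟨i₀, hi₀⟩
  · simp
  obtain ⟨ρ₀, hρ₀, hρ₀n⟩ := exists_irr_constituent (isCharacter_restrict (hω i₀ hi₀) U) (h1 i₀ hi₀)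
  set K : V → ℂ := indFun U ρ₀ with hK
  have hKc : IsCharacter V K := isCharacter_indFun U (isCharacter_of_isIrrCharacter hρ₀)
  -- multiplicities
  have hnat : ∀ {a b : V → ℂ}, IsCharacter V a → IsCharacter V b →
      classInner b a = classInner a b := by
    intro a b ha hb
    obtain ⟨n, hn⟩ := exists_nat_classInner_of_isCharacter ha hb
    rw [← classInner_conj_symm, hn]
    simp
  -- constituent of `K` for each `i`
  have hex : ∀ i ∈ s, ∃ ρ : IrrCharacter V, classInner K ρ ≠ 0 ∧ classInner (ω i) ρ ≠ 0 := by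
    intro i hi
    have h2 : classInner K (ω i) ≠ 0 := by
      rw [hK, frobenius_reciprocity U ρ₀ (ω i) (isClassFunction_of_isCharacter (hω i hi))]
      have h3 : (fun h : U => ω i h) = fun h : U => ω i₀ h := by
        funext h
        exact hU i hi i₀ hi₀ h
      rw [h3]
      intro h0
      apply hρ₀n
      rw [← classInner_conj_symm, h0]
      simp
    rw [classInner_eq_sum_mul hKc (hω i hi)] at h2
    obtain ⟨ρ, -, hρ⟩ := Finset.exists_ne_zero_of_sum_ne_zero h2
    refine ⟨ρ, left_ne_zero_of_mul hρ, ?_⟩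
    have := right_ne_zero_of_mul hρ
    rwa [hnat (hω i hi) (isCharacter_of_isIrrCharacter ρ.2)] at this
  haveI : Nonempty (IrrCharacter V) := ⟨(hex i₀ hi₀).choose⟩
  choose! f hf1 hf2 using hex
  -- injectivity
  have hinj : Set.InjOn f (s : Set ι) := by
    intro i hi j hj hij
    by_contra hne
    have h0 := horth i hi j hj hne
    rw [classInner_eq_sum_mul (hω i hi) (hω j hj)] at h0
    choose p hp using fun χ : IrrCharacter V =>
      exists_nat_classInner_of_isCharacter (hω i hi) (isCharacter_of_isIrrCharacter χ.2)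
    choose q hq using fun χ : IrrCharacter V =>
      exists_nat_classInner_of_isCharacter (isCharacter_of_isIrrCharacter χ.2) (hω j hj)
    have h3 : ((∑ χ, p χ * q χ : ℕ) : ℂ) = 0 := by
      rw [← h0]
      push_cast
      exact Finset.sum_congr rfl fun χ _ => by rw [hp, hq]
    have h4 : ∑ χ, p χ * q χ = 0 := by exact_mod_cast h3
    have h5 := (Finset.sum_eq_zero_iff.1 h4) (f i) (Finset.mem_univ _)
    rcases Nat.mul_eq_zero.1 h5 with h6 | h6
    · apply hf2 i hi
      rw [hp, h6]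
      simp
    · apply hf2 j hj
      rw [← hij, hnat (isCharacter_of_isIrrCharacter (f i).2) (hω j hj), hq, h6]
      simp
  -- the norm of `K`
  obtain ⟨n, hn⟩ := exists_nat_classInner_of_isCharacter hKc hKc
  have hsn : s.card ≤ n := by
    have h2 := classInner_eq_sum_mul hKc hKc
    choose a ha using fun χ : IrrCharacter V =>
      exists_nat_classInner_of_isCharacter hKc (isCharacter_of_isIrrCharacter χ.2)
    have h3 : (n : ℂ) = ((∑ χ, a χ * a χ : ℕ) : ℂ) := by
      rw [← hn, h2]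
      push_cast
      refine Finset.sum_congr rfl fun χ _ => ?_
      rw [hnat hKc (isCharacter_of_isIrrCharacter χ.2), ha]
    have h4 : n = ∑ χ, a χ * a χ := by exact_mod_cast h3
    rw [h4, ← Finset.card_image_of_injOn hinj]
    calc (s.image f).card = ∑ χ ∈ s.image f, 1 := by simp
      _ ≤ ∑ χ ∈ s.image f, a χ * a χ := by
          refine Finset.sum_le_sum fun χ hχ => ?_
          obtain ⟨i, hi, rfl⟩ := Finset.mem_image.1 hχ
          have h5 : a (f i) ≠ 0 := by
            intro h0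
            apply hf1 i hi
            rw [ha, h0]
            simp
          exact Nat.mul_pos (Nat.pos_of_ne_zero h5) (Nat.pos_of_ne_zero h5)
      _ ≤ ∑ χ, a χ * a χ := Finset.sum_le_sum_of_subset (Finset.subset_univ _)
  have hnU : n * Nat.card U ≤ Nat.card V := by
    have hcl := indFun_isClassFunction U ρ₀
    have h2 : classInner K K = classInner ρ₀ (fun h : U => K h) := by
      rw [hK]; exact frobenius_reciprocity U ρ₀ _ hcl
    have h3 : classInner (fun h : U => K h) ρ₀ = (n : ℂ) := by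
      rw [← classInner_conj_symm, ← h2, hn]
      simp
    rw [hK, classInner_indFun_res] at h3
    have hUpos : (Nat.card U : ℂ) ≠ 0 := by
      exact_mod_cast Nat.card_pos.ne'
    have h4 : ∑ x : V, classInner (conjFun U x⁻¹ ρ₀) ρ₀ = (n : ℂ) * Nat.card U := by
      rw [← h3]
      field_simp
    have h5 : ∀ x : V, classInner (conjFun U x⁻¹ ρ₀) ρ₀ =
        ((if conjFun U x⁻¹ ρ₀ = ρ₀ then 1 else 0 : ℕ) : ℂ) := by
      intro x
      split_ifs with hc
      · rw [hc, classInner_irr_self hρ₀]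
        simp
      · rw [classInner_irr_of_ne (isIrr_conjFun U x⁻¹ hρ₀) hρ₀ hc]
        simp
    rw [Finset.sum_congr rfl fun x _ => h5 x] at h4
    have h6 : (∑ x : V, (if conjFun U x⁻¹ ρ₀ = ρ₀ then 1 else 0 : ℕ)) = n * Nat.card U := by
      exact_mod_cast h4
    rw [← h6, Nat.card_eq_fintype_card (α := V)]
    calc (∑ x : V, (if conjFun U x⁻¹ ρ₀ = ρ₀ then 1 else 0 : ℕ)) ≤ ∑ _x : V, 1 :=
          Finset.sum_le_sum fun x _ => by split_ifs <;> simp
      _ = Fintype.card V := by simp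
  calc s.card * Nat.card U ≤ n * Nat.card U := Nat.mul_le_mul_right _ hsn
    _ ≤ Nat.card V := hnU

end StabIndex

variable {R : Type u} [Group R] [Finite R] {r : ℕ} [Fact r.Prime]

/-- **Piece A3.** -/
theorem card_stab_le (T : Subgroup R) [T.Normal] (τ : T → ℂ) (hτ : IsIrrCharacter T τ)
    (U V : Subgroup R) [U.Normal] [V.Normal] (hUV : U ≤ V) (hVT : V ≤ T)
    (hidx : Nat.card V = r * Nat.card U) (S : Subgroup R)
    (hS : ∀ g ∈ S, Inv T τ U (hUV.trans hVT) g) (hV : ∀ g, Inv T τ V hVT g → g ∈ T) :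
    Nat.card S ≤ r * Nat.card (S ⊓ T : Subgroup R) := by
  classical
  haveI := Fintype.ofFinite R
  haveI := Fintype.ofFinite ↥T
  haveI := Fintype.ofFinite ↥V
  haveI := Fintype.ofFinite ↥S
  haveI := Fintype.ofFinite ↥(S ⊓ T : Subgroup R)
  haveI := Fintype.ofFinite ↥(U.subgroupOf V)
  haveI := Fintype.ofFinite ↥(V.subgroupOf T)
  let ω : R → V → ℂ := fun g v => conjFun T g τ ⟨v, hVT v.2⟩
  have hωc : ∀ g, IsCharacter V (ω g) := fun g =>
    isCharacter_comp_hom (isCharacter_of_isIrrCharacter (isIrr_conjFun T g hτ))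
      (Subgroup.inclusion hVT)
  let s : Finset (V → ℂ) := Finset.univ.image (fun g : S => ω g)
  have hsmem : ∀ i ∈ s, ∃ g : S, ω g = i := by
    intro i hi
    obtain ⟨g, -, hg⟩ := Finset.mem_image.1 hi
    exact ⟨g, hg⟩
  have hcount : s.card * Nat.card (U.subgroupOf V) ≤ Nat.card V := by
    refine StabIndex.card_mul_le (U.subgroupOf V) s (fun i => i) ?_ ?_ ?_ ?_
    · intro i hi
      obtain ⟨g, rfl⟩ := hsmem i hi
      exact hωc g
    · intro i hi j hj u
      obtain ⟨g, rfl⟩ := hsmem i hi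
      obtain ⟨h, rfl⟩ := hsmem j hj
      have hu : ((u : V) : R) ∈ U := u.2
      have e₁ := hS g g.2 _ hu
      have e₂ := hS h h.2 _ hu
      exact e₁.trans e₂.symm
    · intro i hi
      obtain ⟨g, rfl⟩ := hsmem i hi
      have h1 : ω g 1 = τ 1 := by
        have : ω g 1 = conjFun T g τ 1 := rfl
        rw [this, conjFun_apply_one]
      show ω g 1 ≠ 0
      rw [h1]
      exact irr_apply_one_ne_zero hτ
    · intro i hi j hj hij
      obtain ⟨g, rfl⟩ := hsmem i hi
      obtain ⟨h, rfl⟩ := hsmem j hj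
      by_contra hne
      apply hij
      have e := Subgroup.subgroupOfEquivOfLe hVT
      have h2 : classInner (fun n : V.subgroupOf T => conjFun T (g : R) τ n)
          (fun n : V.subgroupOf T => conjFun T (h : R) τ n) ≠ 0 := by
        have := classInner_comp_equiv (Subgroup.subgroupOfEquivOfLe hVT) (ω g) (ω h)
        rw [← this] at hne
        exact hne
      have h3 := StabIndex.res_eq_of_inner_ne (V.subgroupOf T) (isIrr_conjFun T (g : R) hτ)
        (isIrr_conjFun T (h : R) hτ) (by simp only [conjFun_apply_one]) h2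
      funext v
      have h4 := congrFun h3 ⟨⟨v, hVT v.2⟩, v.2⟩
      exact h4
  have hcard : Nat.card (U.subgroupOf V) = Nat.card U :=
    Nat.card_congr (Subgroup.subgroupOfEquivOfLe hUV).toEquiv
  have hUpos : 0 < Nat.card U := Nat.card_pos
  have hsr : s.card ≤ r := by
    rw [hcard, hidx] at hcount
    exact Nat.le_of_mul_le_mul_right hcount hUpos
  have hfib : ∀ a ∈ s, (Finset.univ.filter fun g : S => ω g = a).card ≤
      Nat.card (S ⊓ T : Subgroup R) := by
    intro a ha
    obtain ⟨g₀, rfl⟩ := hsmem a ha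
    rw [Nat.card_eq_fintype_card, ← Finset.card_univ]
    have hmem : ∀ x : S, ω x = ω g₀ → (x : R) * (g₀ : R)⁻¹ ∈ (S ⊓ T : Subgroup R) := by
      intro x hx
      refine ⟨S.mul_mem x.2 (S.inv_mem g₀.2), hV _ ?_⟩
      intro v hv
      have hv' : (g₀ : R)⁻¹ * v * (g₀ : R) ∈ V := by
        have := ‹V.Normal›.conj_mem v hv (g₀ : R)⁻¹
        simpa using this
      have h1 := congrFun hx ⟨_, hv'⟩
      simp only [ω, conjFun_apply] at h1
      have e₁ : (x : R) * ((g₀ : R)⁻¹ * v * (g₀ : R)) * (x : R)⁻¹ =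
          (x : R) * (g₀ : R)⁻¹ * v * ((x : R) * (g₀ : R)⁻¹)⁻¹ := by group
      have e₂ : (g₀ : R) * ((g₀ : R)⁻¹ * v * (g₀ : R)) * (g₀ : R)⁻¹ = v := by group
      simp only [e₁, e₂] at h1
      exact h1
    refine Finset.card_le_card_of_injOn (fun x : S =>
      if hx : ω x = ω g₀ then ⟨(x : R) * (g₀ : R)⁻¹, hmem x hx⟩ else 1)
      (fun _ _ => Finset.mem_univ _) ?_
    intro x hx y hy hxy
    have hx' : ω x = ω g₀ := (Finset.mem_filter.1 hx).2
    have hy' : ω y = ω g₀ := (Finset.mem_filter.1 hy).2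
    simp only [dif_pos hx', dif_pos hy', Subtype.mk.injEq] at hxy
    exact Subtype.ext (mul_right_cancel hxy)
  have hfinal := Finset.card_le_mul_card_image (Finset.univ : Finset S)
    (Nat.card (S ⊓ T : Subgroup R)) (f := fun g : S => ω g) (fun a ha => hfib a ha)
  rw [Finset.card_univ, ← Nat.card_eq_fintype_card] at hfinal
  calc Nat.card S ≤ Nat.card (S ⊓ T : Subgroup R) * s.card := hfinal
    _ ≤ Nat.card (S ⊓ T : Subgroup R) * r := Nat.mul_le_mul_left _ hsr
    _ = r * Nat.card (S ⊓ T : Subgroup R) := Nat.mul_comm _ _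

end Cfsg.Agent.Lib.CamPair
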