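import Mathlib

/-!
# A twisted Burnside lower bound (piece A2 of S4141).
-/

set_option autoImplicit false

namespace Cfsg.Agent.Lib.CamPair

universe u v

theorem card_mul_le_sum_fixed {Γ : Type u} {Ω : Type v} {ι : Type*} [Group Γ] [Fintype Γ]
    [Fintype Ω] [Fintype ι] [MulAction Γ Ω] [DecidableEq Ω] (σ : Ω ≃ Ω) (c : Γ ≃* Γ)
    (hσ : ∀ (t : Γ) (ω : Ω), σ (t • ω) = c t • σ ω) (ρ : ι → Ω)
    (hst : ∀ i, ∃ t : Γ, σ (ρ i) = t • ρ i)
    (hdist : ∀ i j, (∃ t : Γ, ρ i = t • ρ j) → i = j) :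
    Fintype.card ι * Fintype.card Γ ≤
      ∑ t : Γ, (Finset.univ.filter fun ω : Ω => t • σ ω = ω).card := by
  classical
  set f : Ω → ℕ := fun ω => (Finset.univ.filter fun t : Γ => t • σ ω = ω).card with hf
  have h1 : ∑ t : Γ, (Finset.univ.filter fun ω : Ω => t • σ ω = ω).card = ∑ ω : Ω, f ω := by
    simp only [Finset.card_filter, hf]
    rw [Finset.sum_comm]
  rw [h1]
  let O : ι → Finset Ω := fun i => Finset.univ.filter fun ω => ω ∈ MulAction.orbit Γ (ρ i)
  have hdisj : ((Finset.univ : Finset ι) : Set ι).PairwiseDisjoint O := by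
    intro i _ j _ hij
    refine Finset.disjoint_left.mpr ?_
    intro ω hωi hωj
    apply hij
    obtain ⟨s, hs⟩ := (Finset.mem_filter.mp hωi).2
    obtain ⟨s', hs'⟩ := (Finset.mem_filter.mp hωj).2
    refine hdist i j ⟨s⁻¹ * s', ?_⟩
    have hs1 : s • ρ i = ω := hs
    have hs2 : s' • ρ j = ω := hs'
    rw [mul_smul, hs2, ← hs1, inv_smul_smul]
  have hfω : ∀ i, ∀ ω ∈ O i, (O i).card * f ω = Fintype.card Γ := by
    intro i ω hω
    obtain ⟨s, hs⟩ := (Finset.mem_filter.mp hω).2
    have hs1 : s • ρ i = ω := hs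
    obtain ⟨t, ht⟩ := hst i
    -- a solution `t₀`
    have hσω : σ ω = (c s * t) • ρ i := by
      rw [← hs1, hσ, ht, mul_smul]
    let t₀ : Γ := s * (c s * t)⁻¹
    have ht₀ : t₀ • σ ω = ω := by
      show (s * (c s * t)⁻¹) • σ ω = ω
      rw [hσω, mul_smul, inv_smul_smul, hs1]
    have hfstab : f ω = Fintype.card (MulAction.stabilizer Γ ω) := by
      rw [← Finset.card_univ (α := MulAction.stabilizer Γ ω)]
      refine Finset.card_bij' (fun a ha => ⟨a * t₀⁻¹, ?_⟩) (fun b _ => b.1 * t₀) ?_ ?_ ?_ ?_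
      · have ha' : a • σ ω = ω := (Finset.mem_filter.mp ha).2
        rw [MulAction.mem_stabilizer_iff, mul_smul]
        have : t₀⁻¹ • ω = σ ω := by
          conv_lhs => rw [← ht₀]
          rw [inv_smul_smul]
        rw [this, ha']
      · intro a ha
        exact Finset.mem_univ _
      · intro b _
        refine Finset.mem_filter.mpr ⟨Finset.mem_univ _, ?_⟩
        rw [mul_smul, ht₀]
        exact MulAction.mem_stabilizer_iff.mp b.2
      · intro a ha
        simp
      · intro b _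
        apply Subtype.ext
        simp
    have hOcard : (O i).card = Fintype.card (MulAction.orbit Γ ω) := by
      have horb : MulAction.orbit Γ ω = MulAction.orbit Γ (ρ i) :=
        MulAction.orbit_eq_iff.mpr (Finset.mem_filter.mp hω).2
      rw [Fintype.card_of_subtype (O i)]
      intro x
      rw [horb]
      simp [O]
    rw [hOcard, hfstab]
    exact MulAction.card_orbit_mul_card_stabilizer_eq_card_group Γ ω
  have hO : ∀ i, ∑ ω ∈ O i, f ω = Fintype.card Γ := by
    intro i
    have hmem : ρ i ∈ O i := by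
      exact Finset.mem_filter.mpr ⟨Finset.mem_univ _, MulAction.mem_orbit_self _⟩
    have hpos : 0 < (O i).card := Finset.card_pos.mpr ⟨_, hmem⟩
    apply Nat.eq_of_mul_eq_mul_left hpos
    rw [Finset.mul_sum, Finset.sum_congr rfl (hfω i), Finset.sum_const, smul_eq_mul]
  calc Fintype.card ι * Fintype.card Γ = ∑ i, ∑ ω ∈ O i, f ω := by
        simp [hO, Finset.card_univ]
    _ = ∑ ω ∈ Finset.univ.biUnion O, f ω := (Finset.sum_biUnion hdisj).symm
    _ ≤ ∑ ω, f ω := Finset.sum_le_sum_of_subset (Finset.subset_univ _)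

end Cfsg.Agent.Lib.CamPair
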