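import Mathlib
import Cfsg.Agent.Lib.CamPair.NoRegA
import Cfsg.Agent.Lib.CamPair.FixCount
import Cfsg.Agent.Lib.CamPair.TwBurn
import Cfsg.Agent.Lib.CamPair.StabIndex
import Cfsg.Agent.Lib.Char.IndNormal

/-!
# No regular orbit on the irreducible characters of the kernel of a Camina `r`-pair.
-/

set_option autoImplicit false
set_option linter.unusedSectionVars false
set_option linter.style.haveILetI false

namespace Cfsg.Agent.Lib.CamPair

open Cfsg Cfsg.Agent.Lib.Char.Basic Cfsg.Agent.Lib.Char.Ortho Cfsg.Agent.Lib.Char.Clifford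
  Cfsg.Agent.Lib.Char.CliffordCorr
open Subgroup

universe u

variable {R : Type u} [Group R] [Finite R] {r : ℕ} [hr : Fact r.Prime]

/-- The stabilizer of the restriction of `τ` to `U`, as a subgroup. -/
def stabS (T : Subgroup R) [hT : T.Normal] (τ : T → ℂ) (U : Subgroup R) [hU : U.Normal] (hUT : U ≤ T) :
    Subgroup R where
  carrier := {g | Inv T τ U hUT g}
  one_mem' := by
    intro u hu
    congr 1
    apply Subtype.ext
    simp
  mul_mem' := by
    intro a b ha hb u hu
    have h1 := ha (b * u * b⁻¹) (hU.conj_mem u hu b)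
    have h2 := hb u hu
    rw [← h2, ← h1]
    congr 1
    apply Subtype.ext
    simp only [mul_inv_rev]
    group
  inv_mem' := by
    intro a ha u hu
    have h1 := ha (a⁻¹ * u * a⁻¹⁻¹) (hU.conj_mem u hu a⁻¹)
    rw [← h1]
    congr 1
    apply Subtype.ext
    simp only [inv_inv]
    group

theorem card_centralizer_conj_inf (U : Subgroup R) [hU : U.Normal] (g x : R) :
    Nat.card (centralizer ({g * x * g⁻¹} : Set R) ⊓ U : Subgroup R) =
      Nat.card (centralizer ({x} : Set R) ⊓ U : Subgroup R) := by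
  refine Nat.card_congr ?_
  have key : ∀ (y a : R), a ∈ centralizer ({y} : Set R) ↔ a * y = y * a := by
    intro y a
    rw [mem_centralizer_iff]
    constructor
    · intro h
      exact (h y rfl).symm
    · rintro h _ rfl
      exact h.symm
  refine
    { toFun := fun a => ⟨g⁻¹ * a * g, ?_, ?_⟩
      invFun := fun a => ⟨g * a * g⁻¹, ?_, hU.conj_mem _ a.2.2 g⟩
      left_inv := ?_
      right_inv := ?_ }
  · have := (key _ _).1 a.2.1
    refine (key _ _).2 ?_
    calc g⁻¹ * a * g * x = g⁻¹ * ((a : R) * (g * x * g⁻¹)) * g := by group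
      _ = g⁻¹ * ((g * x * g⁻¹) * (a : R)) * g := by rw [this]
      _ = x * (g⁻¹ * a * g) := by group
  · have := hU.conj_mem _ a.2.2 g⁻¹
    simpa using this
  · have := (key _ _).1 a.2.1
    refine (key _ _).2 ?_
    calc g * a * g⁻¹ * (g * x * g⁻¹) = g * ((a : R) * x) * g⁻¹ := by group
      _ = g * (x * (a : R)) * g⁻¹ := by rw [this]
      _ = g * x * g⁻¹ * (g * a * g⁻¹) := by group
  · intro a
    apply Subtype.ext
    simp only
    group
  · intro a
    apply Subtype.ext
    simp only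
    group

theorem conjFun_const_one (U : Subgroup R) [hU : U.Normal] (g : R) :
    conjFun U g (fun _ => (1 : ℂ)) = fun _ => 1 := rfl

theorem no_regular_irr (hR : IsPGroup r R) (T : Subgroup R) [hTn : T.Normal] (hT : T ≠ ⊤)
    (hidx : T.index ≠ r)
    (hC : CamP T) (τ : T → ℂ) (hτ : IsIrrCharacter T τ)
    (hreg : ∀ g : R, conjFun T g τ = τ → g ∈ T) :
    False := by
  classical
  have hcl := isClassFunction_of_isCharacter (isCharacter_of_isIrrCharacter hτ)
  have hrpos : 0 < r := hr.out.pos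
  have hr1 : 1 < r := hr.out.one_lt
  obtain ⟨g₀, hg₀⟩ : ∃ g, g ∉ T := by
    by_contra h
    push Not at h
    exact hT (eq_top_iff.2 fun g _ => h g)
  -- the family
  let 𝒰 : Set (Subgroup R) := {U | ∃ _ : U.Normal, ∃ hU : U ≤ T, ∃ g, g ∉ T ∧ Inv T τ U hU g}
  have hbot : (⊥ : Subgroup R) ∈ 𝒰 := by
    refine ⟨inferInstance, bot_le, g₀, hg₀, ?_⟩
    intro u hu
    rw [mem_bot] at hu
    subst hu
    congr 1
    apply Subtype.ext
    simp
  obtain ⟨U, hUm⟩ := (Set.toFinite 𝒰).exists_maximal ⟨_, hbot⟩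
  obtain ⟨hUn, hUT, x, hx, hxI⟩ := hUm.1
  haveI hU : U.Normal := hUn
  have hUne : U ≠ T := by
    rintro rfl
    apply hx
    apply hreg
    funext t
    exact hxI t t.2
  obtain ⟨V, hVn, hUV, hVT, hVc⟩ := exists_normal_between hR (lt_of_le_of_ne hUT hUne)
  haveI := hVn
  have hV : ∀ g, Inv T τ V hVT g → g ∈ T := by
    intro g hg
    by_contra hgT
    have h1 : V ∈ 𝒰 := ⟨hVn, hVT, g, hgT, hg⟩
    have h2 : V ≤ U := hUm.2 h1 hUV
    have h3 : V = U := le_antisymm h2 hUV
    rw [h3] at hVc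
    have : 0 < Nat.card U := Nat.card_pos
    nlinarith
  -- the stabilizer
  let S := stabS T τ U hUT
  have hTS : T ≤ S := by
    intro t ht u hu
    have := hcl ⟨u, hUT hu⟩ ⟨t, ht⟩
    exact this
  have hS : ∀ g ∈ S, Inv T τ U (hUV.trans hVT) g := fun g hg => hg
  have hSc : Nat.card S ≤ r * Nat.card T := by
    have := card_stab_le (r := r) T τ hτ U V hUV hVT hVc S hS hV
    rwa [inf_eq_right.2 hTS] at this
  -- the restricted functions
  let f : R → U → ℂ := fun g u => τ ⟨g * u * g⁻¹, hTn.conj_mem u (hUT u.2) g⟩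
  let ψ : R → T → ℂ := fun g => conjFun T g τ
  have hψ : ∀ g, IsIrrCharacter T (ψ g) := fun g => isIrr_conjFun T g hτ
  have hfψ : ∀ g, f g = fun n : U => ψ g ⟨n, hUT n.2⟩ := fun g => rfl
  have hfT : ∀ (g : R) (t : R), t ∈ T → conjFun U t (f g) = f g := by
    intro g t ht
    funext u
    show τ ⟨g * (t * u * t⁻¹) * g⁻¹, _⟩ = τ ⟨g * u * g⁻¹, _⟩
    have h1 := hcl ⟨g * u * g⁻¹, hTn.conj_mem u (hUT u.2) g⟩ ⟨g * t * g⁻¹, hTn.conj_mem t ht g⟩
    rw [← h1]
    congr 1
    apply Subtype.ext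
    simp only [Subgroup.coe_mul, InvMemClass.coe_inv]
    group
  -- the subgroup `P`
  let π := QuotientGroup.mk' T
  let P : Subgroup R := (centralizer ({π x} : Set (R ⧸ T))).comap π
  have hPmem : ∀ g, g ∈ P → g * x * g⁻¹ * x⁻¹ ∈ T := by
    intro g hg
    have h1 : π g ∈ centralizer ({π x} : Set (R ⧸ T)) := hg
    rw [mem_centralizer_iff] at h1
    have h2 := h1 (π x) rfl
    have h3 : π (g * x * g⁻¹ * x⁻¹) = 1 := by
      simp only [map_mul, map_inv]
      have h4 : π g * π x = π x * π g := h2.symm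
      rw [h4]
      group
    exact (QuotientGroup.eq_one_iff _).1 h3
  have hfx : ∀ g ∈ P, conjFun U x (f g) = f g := by
    intro g hg
    funext u
    show τ ⟨g * (x * u * x⁻¹) * g⁻¹, _⟩ = τ ⟨g * u * g⁻¹, _⟩
    have hu' : g * u * g⁻¹ ∈ U := hU.conj_mem u u.2 g
    have h1 := hxI (g * u * g⁻¹) hu'
    rw [← h1]
    have h2 := hcl ⟨x * (g * u * g⁻¹) * x⁻¹, hTn.conj_mem _ (hUT hu') x⟩ ⟨_, hPmem g hg⟩
    rw [← h2]
    congr 1
    apply Subtype.ext
    simp only [Subgroup.coe_mul, InvMemClass.coe_inv]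
    group
  -- finiteness
  letI : Fintype U := Fintype.ofFinite _
  letI : Fintype T := Fintype.ofFinite _
  letI : Fintype (IrrCharacter U) := Fintype.ofFinite _
  let ι₀ := Set.range (fun g : P => f (g : R))
  letI : Fintype ι₀ := Fintype.ofFinite _
  have hf1 : ∀ g, f g 1 = τ 1 := fun g => conjFun_apply_one T g τ
  have hτ1 : τ 1 ≠ 0 := irr_apply_one_ne_zero hτ
  have hfchar : ∀ g, IsCharacter U (f g) := fun g =>
    isCharacter_comp_hom (isCharacter_of_isIrrCharacter (hψ g)) (Subgroup.inclusion hUT)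
  have hrep : ∀ i : ι₀, ∃ g : R, g ∈ P ∧ f g = i.1 := by
    rintro ⟨_, ⟨g, rfl⟩⟩
    exact ⟨g, g.2, rfl⟩
  choose gi hgiP hgi using hrep
  have hchoose : ∀ i : ι₀, ∃ ρ : IrrCharacter U, classInner (f (gi i)) (ρ : U → ℂ) ≠ 0 := by
    intro i
    obtain ⟨χ, hχ, h⟩ := exists_irr_constituent (hfchar (gi i))
      (by rw [hf1]; exact hτ1)
    exact ⟨⟨χ, hχ⟩, h⟩
  choose ρ₀ hρ₀ using hchoose
  let triv : IrrCharacter U := ⟨fun _ => 1, Cfsg.Agent.Lib.Char.IndNormal.isIrrCharacter_principal⟩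
  let ρ : Option ι₀ → IrrCharacter U := fun o => o.elim triv ρ₀
  -- the action
  letI act : MulAction T (IrrCharacter U) :=
    { smul := fun t ρ => ⟨conjFun U ((t : R)⁻¹) ρ.1, isIrr_conjFun U _ ρ.2⟩
      one_smul := fun ρ => Subtype.ext (by
        show conjFun U (((1 : T) : R)⁻¹) ρ.1 = ρ.1
        simp)
      mul_smul := fun a b ρ => Subtype.ext (by
        show conjFun U (((a * b : T) : R)⁻¹) ρ.1 = conjFun U ((a : R)⁻¹) (conjFun U ((b : R)⁻¹) ρ.1)
        rw [← conjFun_mul]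
        simp) }
  have hsmul : ∀ (t : T) (ω : IrrCharacter U), ((t • ω : IrrCharacter U) : U → ℂ) =
      conjFun U ((t : R)⁻¹) ω.1 := fun _ _ => rfl
  let σ : IrrCharacter U ≃ IrrCharacter U :=
    { toFun := fun ρ => ⟨conjFun U x ρ.1, isIrr_conjFun U x ρ.2⟩
      invFun := fun ρ => ⟨conjFun U x⁻¹ ρ.1, isIrr_conjFun U _ ρ.2⟩
      left_inv := fun ρ => Subtype.ext (conjFun_inv_conjFun U x ρ.1)
      right_inv := fun ρ => Subtype.ext (conjFun_conjFun_inv U x ρ.1) }
  have hσv : ∀ ω : IrrCharacter U, ((σ ω : IrrCharacter U) : U → ℂ) = conjFun U x ω.1 := fun _ => rfl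
  let c : T ≃* T := MulAut.conjNormal x⁻¹
  have hσ : ∀ (t : T) (ω : IrrCharacter U), σ (t • ω) = c t • σ ω := by
    intro t ω
    apply Subtype.ext
    rw [hsmul, hσv, hσv, hsmul, ← conjFun_mul, ← conjFun_mul]
    congr 1
    have : ((c t : T) : R) = x⁻¹ * t * x⁻¹⁻¹ := MulAut.conjNormal_apply _ _
    rw [this]
    group
  -- the trivial constituent
  have hnotriv : ∀ g : R, classInner (f g) (triv : U → ℂ) ≠ 0 → False := by
    intro g hg
    have hp : IsIrrCharacter T (fun _ => (1 : ℂ)) := Cfsg.Agent.Lib.Char.IndNormal.isIrrCharacter_principal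
    have h2 : classInner (fun n : U => (fun _ : T => (1 : ℂ)) ⟨n, hUT n.2⟩) (triv : U → ℂ) ≠ 0 := by
      have : classInner (triv : U → ℂ) (triv : U → ℂ) = 1 := classInner_irr_self triv.2
      show classInner (triv : U → ℂ) (triv : U → ℂ) ≠ 0
      rw [this]
      exact one_ne_zero
    have h3 := fun u => res_prop T U hUT (hψ g) hp triv.2 hg h2 u
    have h4 : ∀ u : U, f g u = τ 1 := by
      intro u
      have h5 := h3 u
      simp only [one_mul, mul_one] at h5
      show ψ g ⟨u, hUT u.2⟩ = τ 1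
      rw [h5]
      exact conjFun_apply_one T g τ
    have h6 : ∀ v (hv : v ∈ U), τ ⟨v, hUT hv⟩ = τ 1 := by
      intro v hv
      have h7 := h4 ⟨g⁻¹ * v * g⁻¹⁻¹, hU.conj_mem v hv g⁻¹⟩
      rw [← h7]
      show _ = τ _
      congr 1
      apply Subtype.ext
      simp only [inv_inv]
      group
    have h8 : ∀ g' ∈ (⊤ : Subgroup R), Inv T τ U (hUV.trans hVT) g' := by
      intro g' _ v hv
      rw [h6 _ (hU.conj_mem v hv g'), h6 v hv]
    have h9 := card_stab_le (r := r) T τ hτ U V hUV hVT hVc ⊤ h8 hV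
    rw [top_inf_eq, Subgroup.card_top] at h9
    have h10 := T.card_mul_index
    have h11 : T.index ≤ r := by
      rw [← h10, mul_comm] at h9
      exact Nat.le_of_mul_le_mul_right h9 Nat.card_pos
    obtain ⟨k, hk⟩ := hR.index T
    have h12 : T.index ≠ 1 := by
      intro h
      exact hT (Subgroup.index_eq_one.1 h)
    have hk0 : k ≠ 0 := by
      rintro rfl
      exact h12 (by simpa using hk)
    have h13 : r ≤ T.index := by
      rw [hk]
      exact Nat.le_self_pow hk0 r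
    exact hidx (le_antisymm h11 h13)
  have hst : ∀ i, ∃ t : T, σ (ρ i) = t • ρ i := by
    rintro (_ | i)
    · exact ⟨1, by
        rw [one_smul]
        rfl⟩
    · have h1 : classInner (fun n : U => ψ (gi i) ⟨n, hUT n.2⟩) (ρ₀ i : U → ℂ) ≠ 0 := hρ₀ i
      have h2 : classInner (fun n : U => ψ (gi i) ⟨n, hUT n.2⟩) ((σ (ρ₀ i) : IrrCharacter U) : U → ℂ) ≠ 0 := by
        show classInner (f (gi i)) (conjFun U x (ρ₀ i).1) ≠ 0
        have h20 : classInner (conjFun U x (f (gi i))) (conjFun U x (ρ₀ i).1) =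
            classInner (f (gi i)) (ρ₀ i).1 := classInner_conjFun U x _ _
        rw [hfx (gi i) (hgiP i)] at h20
        rw [h20]
        exact hρ₀ i
      obtain ⟨t, ht, hte⟩ := exists_conj_res T U hUT (hψ (gi i)) (ρ₀ i).2 (σ (ρ₀ i)).2 h1 h2
      refine ⟨(⟨t, ht⟩ : T)⁻¹, ?_⟩
      apply Subtype.ext
      rw [hsmul]
      have h30 : (((((⟨t, ht⟩ : T)⁻¹ : T) : R)⁻¹)) = t := by simp
      rw [h30]
      exact hte
  have hsmul_triv : ∀ (t : T) (ω : IrrCharacter U), triv = t • ω → ω = triv := by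
    intro t ω h
    have h1 : t⁻¹ • triv = ω := by rw [h, inv_smul_smul]
    rw [← h1]
    rfl
  have hinner : ∀ (g : R) (t : T) (ω : IrrCharacter U), classInner (f g) (ω : U → ℂ) ≠ 0 →
      classInner (f g) ((t • ω : IrrCharacter U) : U → ℂ) ≠ 0 := by
    intro g t ω h
    have h20 : classInner (conjFun U ((t : R)⁻¹) (f g)) (conjFun U ((t : R)⁻¹) ω.1) =
        classInner (f g) ω.1 := classInner_conjFun U _ _ _
    rw [hfT g ((t : R)⁻¹) (T.inv_mem t.2)] at h20
    rw [hsmul, h20]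
    exact h
  have hdist : ∀ i j, (∃ t : T, ρ i = t • ρ j) → i = j := by
    rintro (_ | i) (_ | j) ⟨t, ht⟩
    · rfl
    · exfalso
      have h1 : ρ₀ j = triv := hsmul_triv t _ ht
      have h2 := hρ₀ j
      rw [h1] at h2
      exact hnotriv _ h2
    · exfalso
      have h1 : ρ₀ i = t • triv := ht
      have h2 := hρ₀ i
      have h3 : t • triv = triv := by
        apply Subtype.ext
        rfl
      rw [h1, h3] at h2
      exact hnotriv _ h2
    · have h1 : ρ₀ i = t • ρ₀ j := ht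
      have h2 : classInner (f (gi j)) (ρ₀ i : U → ℂ) ≠ 0 := by
        rw [h1]
        exact hinner _ _ _ (hρ₀ j)
      have h3 := fun u => res_prop T U hUT (hψ (gi i)) (hψ (gi j)) (ρ₀ i).2 (hρ₀ i) h2 u
      have hτ' : ∀ g, ψ g 1 = τ 1 := fun g => conjFun_apply_one T g τ
      have h4 : f (gi i) = f (gi j) := by
        funext u
        have h5 := h3 u
        rw [hτ', hτ'] at h5
        exact mul_left_cancel₀ hτ1 h5
      have h6 : i.1 = j.1 := by rw [← hgi i, ← hgi j, h4]
      exact congrArg some (Subtype.ext h6)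
  -- count
  set c₀ := Nat.card (centralizer ({x} : Set R) ⊓ U : Subgroup R) with hc₀
  have hA2 := card_mul_le_sum_fixed σ c hσ ρ hst hdist
  have hterm : ∀ t : T, (Finset.univ.filter fun ω : IrrCharacter U => t • σ ω = ω).card = c₀ := by
    intro t
    have hcam : ∀ n ∈ U, Nat.card (centralizer ({n * (x * (t : R)⁻¹)} : Set R) ⊓ U : Subgroup R) = c₀ := by
      intro n hn
      have hd : x⁻¹ * n * x * (t : R)⁻¹ ∈ T := by
        refine T.mul_mem ?_ (T.inv_mem t.2)
        have := hTn.conj_mem n (hUT hn) x⁻¹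
        simpa using this
      obtain ⟨g, hg⟩ := hC x hx _ hd
      have h1 : n * (x * (t : R)⁻¹) = g * x * g⁻¹ := by rw [hg]; group
      rw [h1]
      exact card_centralizer_conj_inf U g x
    have h2 := card_fixed_irr U (x * (t : R)⁻¹) c₀ hcam
    rw [← h2]
    symm
    apply Nat.subtype_card
    intro ω
    simp only [Finset.mem_filter, Finset.mem_univ, true_and]
    constructor
    · intro h
      have h3 := congrArg Subtype.val h
      rw [hsmul, hσv, ← conjFun_mul] at h3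
      exact h3
    · intro h
      apply Subtype.ext
      rw [hsmul, hσv, ← conjFun_mul]
      exact h
  simp_rw [hterm] at hA2
  rw [Finset.sum_const, Finset.card_univ, smul_eq_mul, Fintype.card_option] at hA2
  have hTpos : 0 < Fintype.card T := Fintype.card_pos
  have h1 : Fintype.card ι₀ + 1 ≤ c₀ := by
    rw [mul_comm] at hA2
    exact Nat.le_of_mul_le_mul_left hA2 hTpos
  set C : Subgroup R := centralizer ({x} : Set R) with hCdef
  have hxC : x ∈ C := by
    rw [hCdef, mem_centralizer_iff]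
    rintro _ rfl
    rfl
  have hCT : r * Nat.card (C ⊓ T : Subgroup R) ≤ Nat.card C := by
    have hCp : IsPGroup r C := hR.to_subgroup C
    obtain ⟨n, hn⟩ := IsPGroup.iff_card.1 hCp
    have hd : Nat.card (C ⊓ T : Subgroup R) ∣ Nat.card C := Subgroup.card_dvd_of_le inf_le_left
    rw [hn] at hd
    obtain ⟨m, hm, hme⟩ := (Nat.dvd_prime_pow hr.out).1 hd
    have hne : m ≠ n := by
      rintro rfl
      have : (C ⊓ T : Subgroup R) = C := Subgroup.eq_of_le_of_card_ge inf_le_left (by rw [hme, hn])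
      have hx2 : x ∈ (C ⊓ T : Subgroup R) := by rw [this]; exact hxC
      exact hx hx2.2
    rw [hme, hn, ← pow_succ']
    exact Nat.pow_le_pow_right hrpos (by omega)
  have hCU : c₀ ≤ Nat.card (C ⊓ T : Subgroup R) := Subgroup.card_le_of_le (inf_le_inf_left _ hUT)
  have hCam : Cfsg.Agent.Lib.Transfer.Camina.Cam π := by
    intro g hg n hn
    have hg' : g ∉ T := fun h => hg ((QuotientGroup.eq_one_iff g).2 h)
    exact hC g hg' n ((QuotientGroup.eq_one_iff n).1 hn)
  have hπx : π x ≠ 1 := fun h => hx ((QuotientGroup.eq_one_iff x).1 h)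
  have hs : Function.Surjective π := QuotientGroup.mk'_surjective T
  have hcc := Cfsg.Agent.Lib.Transfer.Camina.card_centralizer_eq π hCam hs x hπx
  have hPc : Nat.card P = Nat.card C * Nat.card T := by
    have h3 := Cfsg.Agent.Lib.Transfer.Camina.card_eq_map_mul π P
    rw [Subgroup.map_comap_eq_self_of_surjective hs] at h3
    have h4 : (P ⊓ π.ker : Subgroup R) = T := by
      rw [QuotientGroup.ker_mk']
      apply le_antisymm inf_le_right
      intro t ht
      refine ⟨?_, ht⟩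
      show π t ∈ centralizer ({π x} : Set (R ⧸ T))
      rw [show π t = 1 from (QuotientGroup.eq_one_iff t).2 ht]
      exact one_mem _
    rw [h4, ← hcc] at h3
    exact h3
  have hfeq : ∀ a b : R, f a = f b → b * a⁻¹ ∈ S := by
    intro a b hab u hu
    have h1 := congrFun hab ⟨a⁻¹ * u * a⁻¹⁻¹, hU.conj_mem u hu a⁻¹⟩
    have e1 : f a ⟨a⁻¹ * u * a⁻¹⁻¹, hU.conj_mem u hu a⁻¹⟩ = τ ⟨u, hUT hu⟩ := by
      show τ _ = τ _
      congr 1
      apply Subtype.ext
      simp only [inv_inv]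
      group
    have e2 : f b ⟨a⁻¹ * u * a⁻¹⁻¹, hU.conj_mem u hu a⁻¹⟩ =
        τ ⟨(b * a⁻¹) * u * (b * a⁻¹)⁻¹, hTn.conj_mem u (hUT hu) _⟩ := by
      show τ _ = τ _
      congr 1
      apply Subtype.ext
      simp only [inv_inv]
      group
    rw [e1, e2] at h1
    exact h1.symm
  have hPle : Nat.card P ≤ Fintype.card ι₀ * Nat.card S := by
    let F : P → ι₀ × S := fun g =>
      (⟨f g, ⟨g, rfl⟩⟩, ⟨(g : R) * (gi ⟨f g, ⟨g, rfl⟩⟩)⁻¹, hfeq _ _ (hgi ⟨f g, ⟨g, rfl⟩⟩)⟩)
    have hinj : Function.Injective F := by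
      intro a b hab
      have h2 : (⟨f a, ⟨a, rfl⟩⟩ : ι₀) = ⟨f b, ⟨b, rfl⟩⟩ := congrArg Prod.fst hab
      have h3 : (a : R) * (gi ⟨f a, ⟨a, rfl⟩⟩)⁻¹ = (b : R) * (gi ⟨f b, ⟨b, rfl⟩⟩)⁻¹ :=
        congrArg (fun p : ι₀ × S => ((p.2 : S) : R)) hab
      rw [h2] at h3
      exact Subtype.ext (mul_right_cancel h3)
    have h2 := Nat.card_le_card_of_injective F hinj
    rw [Nat.card_prod, Nat.card_eq_fintype_card (α := ι₀)] at h2
    exact h2
  have hTpos' : 0 < Nat.card T := Nat.card_pos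
  have h5 : Nat.card C * Nat.card T ≤ Fintype.card ι₀ * (r * Nat.card T) := by
    rw [← hPc]
    exact hPle.trans (Nat.mul_le_mul_left _ hSc)
  have h6 : Nat.card C ≤ Fintype.card ι₀ * r := by
    rw [← mul_assoc] at h5
    exact Nat.le_of_mul_le_mul_right h5 hTpos'
  have h7 : r * (Fintype.card ι₀ + 1) ≤ Nat.card C :=
    (Nat.mul_le_mul_left r (h1.trans hCU)).trans hCT
  nlinarith

end Cfsg.Agent.Lib.CamPair
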