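import Mathlib
import Cfsg.Agent.Lib.Char.Monomial
import Cfsg.Agent.Lib.Char.Values
import Cfsg.Agent.Lib.Char.Codegree
import Cfsg.Agent.Lib.Char.DetExt
import Cfsg.Agent.Lib.PGroup.CyclicMax2

/-!
# Auxiliary facts for the regular constituent theorem (S4141).
-/

set_option autoImplicit false

namespace Cfsg.Agent.Lib.CamPair.RegA

open Cfsg Cfsg.Agent.Lib.Char.Basic Cfsg.Agent.Lib.Char.Ortho Cfsg.Agent.Lib.Char.Induced
  Cfsg.Agent.Lib.Char.Clifford Cfsg.Agent.Lib.Char.CliffordCorr
  Cfsg.Agent.Lib.Char.Monomial Cfsg.Agent.Lib.Char.LinearChars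
open scoped ComplexConjugate

universe u

section Sum
variable {X : Type*} [Group X] [Finite X]

/-- The sum of a character over the powers of an element is a natural number. -/
theorem exists_nat_sum_pow {f : X → ℂ} (hf : IsCharacter X f) (x : X) :
    ∃ m : ℕ, ∑ k ∈ Finset.range (orderOf x), f (x ^ k) = m := by
  classical
  let C : Subgroup X := Subgroup.zpowers x
  let _ : Fintype C := Fintype.ofFinite _
  have hres : IsCharacter C (fun c : C => f c) := isCharacter_restrict hf C
  obtain ⟨m, hm⟩ := exists_nat_classInner_of_isCharacter hres (isCharacter_one (G := C))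
  have hx : IsOfFinOrder x := isOfFinOrder_of_finite x
  have h1 : ∑ k ∈ Finset.range (orderOf x), f (x ^ k) = ∑ c : C, f c := by
    rw [Finset.sum_range]
    rw [← Equiv.sum_comp (finEquivZPowers hx) (fun c : C => f c)]
    refine Finset.sum_congr rfl fun k _ => ?_
    rw [finEquivZPowers_apply]
  rw [classInner_def] at hm
  have hC : (Nat.card C : ℂ) ≠ 0 := natCard_ne_zero_complex
  have h2 : ∑ c : C, f c = (Nat.card C : ℂ) * m := by
    rw [← hm, mul_inv_cancel_left₀ hC]
    refine Finset.sum_congr rfl fun c _ => ?_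
    simp
  refine ⟨Nat.card C * m, ?_⟩
  rw [h1, h2]
  push_cast
  rfl

theorem sum_pow_eq_zero_of_add {f g h : X → ℂ} (hf : IsCharacter X f) (hg : IsCharacter X g)
    (hadd : ∀ y, h y = f y + g y) (x : X)
    (h0 : ∑ k ∈ Finset.range (orderOf x), h (x ^ k) = 0) :
    ∑ k ∈ Finset.range (orderOf x), f (x ^ k) = 0 := by
  obtain ⟨m, hm⟩ := exists_nat_sum_pow hf x
  obtain ⟨l, hl⟩ := exists_nat_sum_pow hg x
  simp_rw [hadd, Finset.sum_add_distrib, hm, hl] at h0
  have h3 : (m + l : ℕ) = 0 := by exact_mod_cast h0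
  rw [hm]
  have : m = 0 := by omega
  simp [this]

end Sum

section Ne
variable {X : Type*} [Group X] [Fintype X]

/-- `τ + Ξ` contains `τ`. -/
theorem classInner_add_ne_zero {f τ Ξ : X → ℂ} (hτ : IsIrrCharacter X τ) (hΞ : IsCharacter X Ξ)
    (h : f = τ + Ξ) : classInner f τ ≠ 0 := by
  obtain ⟨m, hm⟩ := exists_nat_classInner_of_isCharacter hΞ (isCharacter_of_isIrrCharacter hτ)
  rw [h, classInner_add_left, classInner_irr_self hτ, hm]
  intro h0
  have : ((1 + m : ℕ) : ℂ) = 0 := by push_cast; exact h0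
  have h2 : 1 + m = 0 := by exact_mod_cast this
  omega

end Ne

section Scalar
variable {X : Type*} [Group X] [Finite X]

/-- If a character is a multiple of a linear character on the whole group, every operator is the
corresponding scalar. -/
theorem rep_eq_smul_of_char {V : Type*} [AddCommGroup V] [Module ℂ V] [FiniteDimensional ℂ V]
    (σ : Representation ℂ X V) (θ : X →* ℂˣ) (e : ℂ)
    (h : ∀ b : X, σ.character b = e * ((θ b : ℂˣ) : ℂ)) (b : X) :
    σ b = ((θ b : ℂˣ) : ℂ) • (1 : Module.End ℂ V) := by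
  let σ' : Representation ℂ X V :=
    { toFun := fun y => (((θ y)⁻¹ : ℂˣ) : ℂ) • σ y
      map_one' := by simp
      map_mul' := by
        intro x y
        rw [map_mul, map_mul, mul_inv_rev, smul_mul_smul_comm, Units.val_mul, mul_comm] }
  have hch : ∀ y, σ'.character y = σ'.character 1 := by
    intro y
    have h1 : σ'.character y = (((θ y)⁻¹ : ℂˣ) : ℂ) * σ.character y := by
      show LinearMap.trace ℂ V ((((θ y)⁻¹ : ℂˣ) : ℂ) • σ y) = _
      rw [map_smul]
      rfl
    have h2 : σ'.character 1 = σ.character 1 := by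
      show LinearMap.trace ℂ V (((θ 1)⁻¹ : ℂˣ) • σ 1) = _
      simp
    rw [h1, h2, h y, h 1]
    have hne := (θ y).ne_zero
    simp
    field_simp
  have hk := (Cfsg.Agent.Lib.Char.Codegree.character_eq_one_iff σ' b).mp (hch b)
  rw [Cfsg.Agent.Lib.Char.Codegree.mem_repKer] at hk
  have h3 : (((θ b)⁻¹ : ℂˣ) : ℂ) • σ b = 1 := hk
  calc σ b = ((θ b : ℂˣ) : ℂ) • ((((θ b)⁻¹ : ℂˣ) : ℂ) • σ b) := by
        rw [smul_smul, Units.mul_inv, one_smul]
    _ = _ := by rw [h3]

end Scalar

section CaseOne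
variable {R : Type u} [Group R] [Finite R] {r : ℕ} [hr : Fact r.Prime]

omit [Finite R] hr in
theorem ne_zero_of_irr {n : ℕ} (ρ : Representation ℂ R (Fin n → ℂ)) [hirr : ρ.IsIrreducible] : n ≠ 0 := by
  rintro rfl
  have : Subsingleton (Subrepresentation ρ) := by
    refine ⟨fun A B => ?_⟩
    apply Subrepresentation.toSubmodule_injective
    exact Subsingleton.elim _ _
  exact bot_ne_top (Subsingleton.elim _ _ : (⊥ : Subrepresentation ρ) = ⊤)

omit [Finite R] hr in
/-- An element whose operator commutes with all the others is scalar (Schur). -/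
theorem mem_scalar_of_commute {n : ℕ} (ρ : Representation ℂ R (Fin n → ℂ)) [hirr : ρ.IsIrreducible]
    (g : R) (h : ∀ y, ρ g * ρ y = ρ y * ρ g) : g ∈ scalarSubgroup ρ := by
  classical
  have hn := ne_zero_of_irr ρ
  have hnt : Nontrivial (Fin n → ℂ) := by
    have : Nonempty (Fin n) := ⟨⟨0, Nat.pos_of_ne_zero hn⟩⟩
    infer_instance
  obtain ⟨μ, hμ⟩ := Module.End.exists_eigenvalue (ρ g)
  obtain ⟨v, hv⟩ := hμ.exists_hasEigenvector
  let W : Subrepresentation ρ :=
    { toSubmodule := Module.End.eigenspace (ρ g) μ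
      apply_mem_toSubmodule := by
        intro y w hw
        rw [Module.End.mem_eigenspace_iff] at hw ⊢
        have h1 := congrArg (fun M : Module.End ℂ (Fin n → ℂ) => M w) (h y)
        simp only [Module.End.mul_apply] at h1
        rw [h1, hw, map_smul] }
  have hW : W = ⊤ := by
    rcases eq_bot_or_eq_top W with h0 | h0
    · exfalso
      apply hv.2
      have hvbot : v ∈ (⊥ : Subrepresentation ρ) := h0 ▸ (Module.End.mem_eigenspace_iff.mpr hv.apply_eq_smul)
      exact (Submodule.mem_bot ℂ).mp hvbot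
    · exact h0
  have hall : ρ g = μ • (1 : Module.End ℂ (Fin n → ℂ)) := by
    refine LinearMap.ext fun w => ?_
    have hw : w ∈ W := by rw [hW]; trivial
    have := Module.End.mem_eigenspace_iff.mp hw
    simpa using this
  have hμ0 : μ ≠ 0 := by
    rintro rfl
    have h1 : ρ g * ρ g⁻¹ = 1 := by rw [← map_mul, mul_inv_cancel, map_one]
    rw [hall, zero_smul, zero_mul] at h1
    have h2 : v = 0 := by
      have := congrArg (fun M : Module.End ℂ (Fin n → ℂ) => M v) h1
      simpa using this.symm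
    exact hv.2 h2
  exact ⟨Units.mk0 μ hμ0, hall⟩

/-- **Case 1**: all of `T` acts by scalars. Then `T` is the whole group. -/
theorem case_one (hodd : r ≠ 2) (hR : IsPGroup r R) (T : Subgroup R) {n : ℕ}
    (ρ : Representation ℂ R (Fin n → ℂ)) [hirr : ρ.IsIrreducible] (hTZ : T ≤ scalarSubgroup ρ)
    (hvan : ∀ x, x ∉ T → ρ.character x = 0)
    (hne : ∀ x, x ∉ T → ∑ k ∈ Finset.range (orderOf x), ρ.character (x ^ k) = 0) : T = ⊤ := by
  classical
  have hn := ne_zero_of_irr ρ
  have hnt : Nontrivial (Fin n → ℂ) := by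
    have : Nonempty (Fin n) := ⟨⟨0, Nat.pos_of_ne_zero hn⟩⟩
    infer_instance
  have hrp : r.Prime := hr.out
  -- elements with `x ^ r` in the kernel lie in `T`
  have claimA : ∀ x : R, ρ (x ^ r) = 1 → x ∈ T := by
    intro x hxr
    by_contra hxT
    have hs := hne x hxT
    have hterm : ∀ k ∈ Finset.range (orderOf x), ρ.character (x ^ k) =
        ((if r ∣ k then 1 else 0 : ℕ) : ℂ) * (n : ℂ) := by
      intro k _
      by_cases hk : r ∣ k
      · obtain ⟨l, rfl⟩ := hk
        have h1 : ρ (x ^ (r * l)) = 1 := by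
          rw [pow_mul, map_pow, hxr, one_pow]
        have h2 : ρ.character (x ^ (r * l)) = (n : ℂ) := by
          show LinearMap.trace ℂ _ (ρ (x ^ (r * l))) = _
          rw [h1]
          simp [LinearMap.trace_one]
        simp [h2]
      · rw [if_neg hk]
        simp only [Nat.cast_zero, zero_mul]
        apply hvan
        intro hmem
        apply hxT
        -- `x` is a power of `x ^ k`
        obtain ⟨a, ha⟩ := (hR x)
        have hco : Nat.Coprime k (orderOf x) := by
          have h3 : orderOf x ∣ r ^ a := orderOf_dvd_of_pow_eq_one ha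
          obtain ⟨b, -, hb⟩ := (Nat.dvd_prime_pow hrp).mp h3
          rw [hb]
          exact Nat.Coprime.pow_right _ ((Nat.Prime.coprime_iff_not_dvd hrp).mpr hk).symm
        obtain ⟨m, hm⟩ := exists_pow_eq_self_of_coprime hco
        rw [← hm]
        exact T.pow_mem hmem m
    rw [Finset.sum_congr rfl hterm, ← Finset.sum_mul] at hs
    have hpos : 1 ≤ ∑ k ∈ Finset.range (orderOf x), (if r ∣ k then 1 else 0 : ℕ) := by
      have h0 : 0 ∈ Finset.range (orderOf x) := Finset.mem_range.mpr (orderOf_pos x)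
      have := Finset.single_le_sum (f := fun k => (if r ∣ k then 1 else 0 : ℕ))
        (fun _ _ => Nat.zero_le _) h0
      simpa using this
    have h6 : ((∑ k ∈ Finset.range (orderOf x), (if r ∣ k then 1 else 0 : ℕ) : ℕ) : ℂ) * (n : ℂ) = 0 := by
      rw [Nat.cast_sum]
      exact hs
    rcases mul_eq_zero.mp h6 with h7 | h7
    · have : (∑ k ∈ Finset.range (orderOf x), (if r ∣ k then 1 else 0 : ℕ)) = 0 := by exact_mod_cast h7
      omega
    · exact hn (by exact_mod_cast h7)
  -- scalars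
  have hscal : ∀ x : R, ρ (x ^ r) = 1 → ∃ c : ℂˣ, ρ x = (c : ℂ) • 1 ∧ c ^ r = 1 := by
    intro x hxr
    obtain ⟨c, hc⟩ := hTZ (claimA x hxr)
    refine ⟨c, hc, ?_⟩
    rw [map_pow, hc, smul_pow, one_pow] at hxr
    have hv : ∃ v : Fin n → ℂ, v ≠ 0 := exists_ne 0
    obtain ⟨v, hv⟩ := hv
    have h2 := congrArg (fun M : Module.End ℂ (Fin n → ℂ) => M v) hxr
    simp only [LinearMap.smul_apply, Module.End.one_apply] at h2
    have h3 : ((c : ℂ) ^ r - 1) • v = 0 := by rw [sub_smul, h2, one_smul, sub_self]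
    rcases smul_eq_zero.mp h3 with h4 | h4
    · apply Units.ext
      simpa [sub_eq_zero] using h4
    · exact absurd h4 hv
  -- the quotient by the kernel
  let K : Subgroup R := Cfsg.Agent.Lib.Char.Codegree.repKer ρ
  have : K.Normal := Cfsg.Agent.Lib.Char.Codegree.repKer_normal ρ
  have hQ : IsPGroup r (R ⧸ K) := hR.to_quotient K
  have hmk : ∀ y : R, ((y : R ⧸ K) = 1) ↔ ρ y = 1 := by
    intro y
    rw [QuotientGroup.eq_one_iff]
    exact Cfsg.Agent.Lib.Char.Codegree.mem_repKer ρ y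
  have huniq : Cfsg.Agent.Lib.PGroup.CyclicMax2.UniqueP r (R ⧸ K) := by
    intro y z hy hz hy1 hz1
    obtain ⟨x, rfl⟩ := QuotientGroup.mk_surjective y
    obtain ⟨w, rfl⟩ := QuotientGroup.mk_surjective z
    have hx : ρ (x ^ r) = 1 := (hmk _).mp (by rw [QuotientGroup.mk_pow]; exact hy)
    have hw : ρ (w ^ r) = 1 := (hmk _).mp (by rw [QuotientGroup.mk_pow]; exact hz)
    obtain ⟨c, hc, hcr⟩ := hscal x hx
    obtain ⟨d, hd, hdr⟩ := hscal w hw
    have hd1 : d ≠ 1 := by
      rintro rfl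
      apply hz1
      apply (hmk w).mpr
      rw [hd]
      simp
    have hord : orderOf d = r := orderOf_eq_prime hdr hd1
    have hprim : IsPrimitiveRoot d r := hord ▸ IsPrimitiveRoot.orderOf d
    have hprim' : IsPrimitiveRoot (d : ℂ) r := IsPrimitiveRoot.coe_units_iff.mpr hprim
    have : NeZero r := ⟨hrp.ne_zero⟩
    have hcr' : (c : ℂ) ^ r = 1 := by
      have := congrArg Units.val hcr
      simpa using this
    obtain ⟨j, -, hj⟩ := hprim'.eq_pow_of_pow_eq_one hcr'
    have hxw : ρ (x⁻¹ * w ^ j) = 1 := by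
      have h1 : ρ (w ^ j) = ρ x := by
        rw [map_pow, hd, smul_pow, one_pow, hc, hj]
      rw [map_mul, h1, ← map_mul, inv_mul_cancel, map_one]
    have hfin : ((x : R ⧸ K)) = (w : R ⧸ K) ^ j := by
      have h2 := (hmk _).mpr hxw
      rw [QuotientGroup.mk_mul, QuotientGroup.mk_inv, QuotientGroup.mk_pow] at h2
      exact (inv_mul_eq_one.mp h2)
    rw [hfin]
    exact Subgroup.npow_mem_zpowers _ _
  have hcyc : IsCyclic (R ⧸ K) := by
    rcases Cfsg.Agent.Lib.PGroup.CyclicMax2.cyclic_or_quaternion hQ huniq with h | h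
    · exact h
    · exact absurd h.1 hodd
  have hcomm : ∀ g y : R, ρ g * ρ y = ρ y * ρ g := by
    intro g y
    have h1 : ((g * y : R) : R ⧸ K) = ((y * g : R) : R ⧸ K) := by
      rw [QuotientGroup.mk_mul, QuotientGroup.mk_mul]
      have hmc : IsMulCommutative (R ⧸ K) := IsCyclic.isMulCommutative
      exact hmc.is_comm.comm _ _
    have h2 := QuotientGroup.eq.mp h1
    have h3 : ρ ((g * y)⁻¹ * (y * g)) = 1 := (Cfsg.Agent.Lib.Char.Codegree.mem_repKer ρ _).mp h2
    have h4 : ρ (y * g) = ρ (g * y) := by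
      have : y * g = (g * y) * ((g * y)⁻¹ * (y * g)) := by group
      rw [this, map_mul, h3, mul_one]
    rw [← map_mul, ← map_mul, h4]
  refine Subgroup.eq_top_iff' T |>.mpr fun g => ?_
  by_contra hg
  obtain ⟨c, hc⟩ := mem_scalar_of_commute ρ g (fun y => hcomm g y)
  have h0 := hvan g hg
  have h1 : ρ.character g = (c : ℂ) * n := by
    show LinearMap.trace ℂ _ (ρ g) = _
    rw [hc]
    simp [LinearMap.trace_one]
  rw [h1] at h0
  rcases mul_eq_zero.mp h0 with h2 | h2
  · exact c.ne_zero h2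
  · exact hn (by exact_mod_cast h2)

end CaseOne


section Eigen
variable {R : Type u} [Group R]

/-- Internal facts of `exists_indFun_of_eigen`. -/
theorem eigen_facts {n : ℕ} (ρ : Representation ℂ R (Fin n → ℂ)) [ρ.IsIrreducible] [Fintype R]
    (N : Subgroup R) [hN : N.Normal]
    (θ : N →* ℂˣ) (v : Fin n → ℂ) (hv : v ≠ 0)
    (hvθ : ∀ b : N, ρ (b : R) v = ((θ b : ℂˣ) : ℂ) • v) (a : N)
    (ha : ∀ c : ℂˣ, ρ (a : R) ≠ (c : ℂ) • 1) :
    inertiaOf N (fun b => ((θ b : ℂˣ) : ℂ)) ≠ ⊤ ∧
      ∀ [Fintype N], classInner (fun b : N => ρ.character (b : R)) (fun b => ((θ b : ℂˣ) : ℂ)) ≠ 0 := by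
  classical
  set ϑ : N → ℂ := fun b => ((θ b : ℂˣ) : ℂ) with hϑdef
  set T : Subgroup R := inertiaOf N ϑ with hTdef
  have hNT : N ≤ T := by
    intro m hm b
    show ((θ _ : ℂˣ) : ℂ) = ((θ b : ℂˣ) : ℂ)
    have : (⟨m * b * m⁻¹, hN.conj_mem (b : R) b.2 m⟩ : N) = ⟨m, hm⟩ * b * ⟨m, hm⟩⁻¹ := rfl
    rw [this, map_mul, map_mul, map_inv, mul_comm (θ ⟨m, hm⟩) (θ b), mul_inv_cancel_right]
  have hT : T ≠ ⊤ := by
    intro htop
    let W : Subrepresentation ρ :=
      { toSubmodule :=
          { carrier := {w | ∀ b : N, ρ (b : R) w = ϑ b • w}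
            add_mem' := by
              intro x y hx hy b
              rw [map_add, hx b, hy b, smul_add]
            zero_mem' := by
              intro b
              simp
            smul_mem' := by
              intro c x hx b
              rw [map_smul, hx b, smul_comm] }
        apply_mem_toSubmodule := by
          intro g w hw b
          have hg : g ∈ T := by rw [htop]; trivial
          have hg' := (mem_inertiaOf N ϑ g).mp hg
          have h1 : (ρ (b : R)) (ρ g w) = ρ g (ρ (g⁻¹ * b * g) w) := by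
            rw [← Module.End.mul_apply, ← Module.End.mul_apply, ← map_mul, ← map_mul]
            congr 2
            group
          have hmem : g⁻¹ * (b : R) * g ∈ N := by
            have := hN.conj_mem (b : R) b.2 g⁻¹
            simpa using this
          have h2 := hw ⟨g⁻¹ * b * g, hmem⟩
          have h3 := hg' ⟨g⁻¹ * b * g, hmem⟩
          have hcast : (⟨g * ((⟨g⁻¹ * b * g, hmem⟩ : N) : R) * g⁻¹,
              hN.conj_mem _ (⟨g⁻¹ * b * g, hmem⟩ : N).2 g⟩ : N) = b := by
            apply Subtype.ext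
            simp [mul_assoc]
          rw [hcast] at h3
          rw [h1]
          rw [h2, map_smul, ← h3] }
    have hvW : v ∈ W := hvθ
    have hWtop : W = ⊤ := by
      rcases eq_bot_or_eq_top W with h | h
      · exfalso
        apply hv
        have hvbot : v ∈ (⊥ : Subrepresentation ρ) := h ▸ hvW
        exact (Submodule.mem_bot ℂ).mp hvbot
      · exact h
    apply ha (θ a)
    refine LinearMap.ext (fun x => ?_)
    have hx : x ∈ W := by rw [hWtop]; trivial
    have := hx a
    simpa [ϑ] using this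
  refine ⟨hT, ?_⟩
  intro _
  have hϑ : IsIrrCharacter N ϑ := isIrr_of_hom θ
  have hχ : IsIrrCharacter R ρ.character := ⟨n, ρ, inferInstance, rfl⟩
  have hinner : classInner (fun b : N => ρ.character (b : R)) ϑ ≠ 0 := by
    let σ : Representation ℂ N (Fin n → ℂ) := ρ.comp N.subtype
    have hσ : (fun b : N => ρ.character (b : R)) = σ.character := rfl
    have hrep : ϑ = (repOfHom θ).character := (repOfHom_character θ).symm
    rw [hσ, hrep, classInner_character_eq_finrank]
    let f : Representation.IntertwiningMap (repOfHom θ) σ :=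
      { toLinearMap :=
          { toFun := fun z => z 0 • v
            map_add' := by intro x y; simp [add_smul]
            map_smul' := by intro c x; simp [mul_smul] }
        isIntertwining' := by
          intro g
          refine LinearMap.ext (fun z => ?_)
          show (repOfHom θ g z) 0 • v = σ g (z 0 • v)
          rw [repOfHom_apply, map_smul]
          show _ = z 0 • ρ (g : R) v
          rw [hvθ g, smul_smul]
          simp [mul_comm] }
    have hf : f ≠ 0 := by
      intro h0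
      have h1 : f (fun _ => 1) = 0 := by rw [h0]; rfl
      apply hv
      have h2 : f (fun _ => 1) = (1 : ℂ) • v := rfl
      rw [h2, one_smul] at h1
      exact h1
    have : Nontrivial (Representation.IntertwiningMap (repOfHom θ) σ) := ⟨⟨f, 0, hf⟩⟩
    have hpos := Module.finrank_pos (R := ℂ) (M := Representation.IntertwiningMap (repOfHom θ) σ)
    exact_mod_cast hpos.ne'
  exact hinner

end Eigen

section Data
variable {R : Type u} [Group R] [Finite R] {r : ℕ} [hr : Fact r.Prime]

/-- A normal subgroup inside `T` with a linear constituent that is not invariant. -/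
theorem exists_data (hR : IsPGroup r R) (T : Subgroup R) [hTn : T.Normal] {n : ℕ}
    (ρ : Representation ℂ R (Fin n → ℂ)) [hirr : ρ.IsIrreducible] (hTZ : ¬ T ≤ scalarSubgroup ρ) :
    ∃ (A : Subgroup R) (_ : A.Normal) (_ : A ≤ T) (θ : A →* ℂˣ),
      inertiaOf A (fun b => ((θ b : ℂˣ) : ℂ)) ≠ ⊤ ∧
      ∀ [Fintype A], classInner (fun b : A => ρ.character (b : R)) (fun b => ((θ b : ℂˣ) : ℂ)) ≠ 0 := by
  classical
  letI : Fintype R := Fintype.ofFinite R
  set Z := scalarSubgroup ρ with hZdef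
  have hn := ne_zero_of_irr ρ
  have hnt : Nontrivial (Fin n → ℂ) := by
    have : Nonempty (Fin n) := ⟨⟨0, Nat.pos_of_ne_zero hn⟩⟩
    infer_instance
  have hQ : IsPGroup r (R ⧸ Z) := hR.to_quotient Z
  have hN₀n : (T.map (QuotientGroup.mk' Z)).Normal := hTn.map _ (QuotientGroup.mk'_surjective Z)
  have hN₀ : T.map (QuotientGroup.mk' Z) ≠ ⊥ := by
    intro h0
    apply hTZ
    intro t ht
    have h1 : (t : R ⧸ Z) ∈ T.map (QuotientGroup.mk' Z) := ⟨t, ht, rfl⟩
    rw [h0] at h1
    exact (QuotientGroup.eq_one_iff t).mp h1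
  have hc := Cfsg.Agent.Lib.PGroup.Basic.inf_center_ne_bot hQ hN₀
  obtain ⟨⟨abar, habarT, habarc⟩, habar1⟩ := Subgroup.ne_bot_iff_exists_ne_one.mp hc
  have habar1' : abar ≠ 1 := fun h => habar1 (Subtype.ext h)
  obtain ⟨a, haT, rfl⟩ := habarT
  have haZ : a ∉ Z := by
    intro h
    exact habar1' ((QuotientGroup.eq_one_iff a).mpr h)
  obtain ⟨μ, hμ⟩ := Module.End.exists_eigenvalue (ρ a)
  obtain ⟨v, hv⟩ := hμ.exists_hasEigenvector
  let N : Subgroup R := (Subgroup.zpowers (a : R ⧸ Z)).comap (QuotientGroup.mk' Z)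
  have hN : N.Normal := by
    refine ⟨fun b hb g => ?_⟩
    have hb' : ((b : R) : R ⧸ Z) ∈ Subgroup.zpowers (a : R ⧸ Z) := hb
    show ((g * b * g⁻¹ : R) : R ⧸ Z) ∈ Subgroup.zpowers (a : R ⧸ Z)
    obtain ⟨k, hk⟩ := Subgroup.mem_zpowers_iff.mp hb'
    have hcent : ((b : R) : R ⧸ Z) ∈ Subgroup.center (R ⧸ Z) := by
      rw [← hk]
      exact Subgroup.zpow_mem _ habarc k
    have h2 : ((g * b * g⁻¹ : R) : R ⧸ Z) = ((b : R) : R ⧸ Z) := by
      rw [QuotientGroup.mk_mul, QuotientGroup.mk_mul, QuotientGroup.mk_inv,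
        (Subgroup.mem_center_iff.mp hcent (g : R ⧸ Z)), mul_inv_cancel_right]
    rw [h2]
    exact hb'
  have heig : ∀ b ∈ N, ∃ c : ℂ, ρ b v = c • v := by
    intro b hb
    have hb' : ((b : R) : R ⧸ Z) ∈ Subgroup.zpowers (a : R ⧸ Z) := hb
    rw [← mem_powers_iff_mem_zpowers] at hb'
    obtain ⟨k, hk⟩ := hb'
    have hzmem : (a ^ k)⁻¹ * b ∈ Z := by
      apply QuotientGroup.eq.mp
      rw [QuotientGroup.mk_pow]
      exact hk
    obtain ⟨c, hc⟩ := hzmem
    have hb2 : b = a ^ k * ((a ^ k)⁻¹ * b) := by group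
    refine ⟨c * μ ^ k, ?_⟩
    rw [hb2, map_mul, hc, map_pow, Module.End.mul_apply, LinearMap.smul_apply, Module.End.one_apply,
      map_smul, Module.End.HasEigenvector.pow_apply hv, smul_smul]
  let A : Subgroup R := N ⊓ T
  have hAn : A.Normal := Subgroup.normal_inf_normal N T
  obtain ⟨θ, hθ⟩ := exists_hom_of_eigen ρ A v hv.2 (fun b hb => heig b hb.1)
  have haA : a ∈ A := ⟨Subgroup.mem_zpowers (a : R ⧸ Z), haT⟩
  have := eigen_facts ρ A θ v hv.2 hθ ⟨a, haA⟩ (fun c hc => haZ ⟨c, hc⟩)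
  exact ⟨A, hAn, inf_le_right, θ, this.1, this.2⟩

end Data

section MulRes

/-- `ψ (w * b) = ψ w * θ b` when `ψ` is a multiple of the linear `θ` on the image of `j`. -/
theorem apply_mul_of_res {X A : Type*} [Group X] [Group A] [Finite A] {ψ : X → ℂ}
    (hψ : IsCharacter X ψ) (j : A →* X) (θ : A →* ℂˣ) (e : ℂ)
    (h : ∀ b : A, ψ (j b) = e * ((θ b : ℂˣ) : ℂ)) (w : X) (b : A) :
    ψ (w * j b) = ψ w * ((θ b : ℂˣ) : ℂ) := by
  obtain ⟨n, ρ, rfl⟩ := hψ
  have h1 := rep_eq_smul_of_char (ρ.comp j) θ e h b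
  have h2 : ρ (j b) = ((θ b : ℂˣ) : ℂ) • (1 : Module.End ℂ (Fin n → ℂ)) := h1
  show LinearMap.trace ℂ _ (ρ (w * j b)) = LinearMap.trace ℂ _ (ρ w) * _
  rw [map_mul, h2, mul_smul_comm, mul_one, map_smul, smul_eq_mul, mul_comm]

end MulRes

section Vanish
variable {R : Type u} [Group R] [Fintype R]

/-- `ψ` vanishes at `y` as soon as `ψ^R` vanishes on `y A`. -/
theorem vanish_of_ind (A : Subgroup R) [hA : A.Normal] [Fintype A] (θ : A →* ℂˣ)
    (I : Subgroup R) [Fintype I] (hI : I = inertiaOf A (fun b => ((θ b : ℂˣ) : ℂ))) (hAI : A ≤ I)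
    {ψ : I → ℂ} (hψ : IsCharacter I ψ) (e : ℂ)
    (hres : ∀ b : A, ψ ⟨b, hAI b.2⟩ = e * ((θ b : ℂˣ) : ℂ))
    (y : I) (h0 : ∀ b : A, indFun I ψ ((y : R) * b) = 0) : ψ y = 0 := by
  classical
  have hϑ : IsIrrCharacter A (fun b => ((θ b : ℂˣ) : ℂ)) := isIrr_of_hom θ
  set ϑ : A → ℂ := fun b => ((θ b : ℂˣ) : ℂ) with hϑdef
  let j : A →* I := Subgroup.inclusion hAI
  have hmul : ∀ (w : I) (b : A), ψ (w * j b) = ψ w * ϑ b :=
    apply_mul_of_res hψ j θ e hres
  -- the pointwise formula
  have hE : ∀ (x : R) (b : A), extendByZero I ψ (x⁻¹ * ((y : R) * b) * x) =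
      extendByZero I ψ (x⁻¹ * (y : R) * x) *
        ϑ ⟨x⁻¹ * b * x, by simpa using hA.conj_mem (b : R) b.2 x⁻¹⟩ := by
    intro x b
    set b' : A := ⟨x⁻¹ * b * x, by simpa using hA.conj_mem (b : R) b.2 x⁻¹⟩ with hb'
    have hfac : x⁻¹ * ((y : R) * b) * x = (x⁻¹ * (y : R) * x) * (b' : R) := by
      simp only [hb']; group
    rw [hfac]
    by_cases hm : x⁻¹ * (y : R) * x ∈ I
    · have hm2 : (x⁻¹ * (y : R) * x) * (b' : R) ∈ I := I.mul_mem hm (hAI b'.2)
      rw [extendByZero_of_mem _ _ hm2, extendByZero_of_mem _ _ hm]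
      exact hmul ⟨_, hm⟩ b'
    · have hm2 : (x⁻¹ * (y : R) * x) * (b' : R) ∉ I := by
        intro h
        apply hm
        have := I.mul_mem h (I.inv_mem (hAI b'.2))
        simpa using this
      rw [extendByZero_of_notMem _ _ hm2, extendByZero_of_notMem _ _ hm, zero_mul]
  -- the inner sum
  have hS : ∀ x : R, ∑ b : A, ϑ ⟨x⁻¹ * b * x, by simpa using hA.conj_mem (b : R) b.2 x⁻¹⟩ * conj (ϑ b) =
      if x ∈ I then (Nat.card A : ℂ) else 0 := by
    intro x
    have hc : ∑ b : A, ϑ ⟨x⁻¹ * b * x, by simpa using hA.conj_mem (b : R) b.2 x⁻¹⟩ * conj (ϑ b) =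
        (Nat.card A : ℂ) * classInner (conjFun A x⁻¹ ϑ) ϑ := by
      rw [classInner_def, mul_inv_cancel_left₀ natCard_ne_zero_complex]
      refine Finset.sum_congr rfl fun b _ => ?_
      rw [conjFun_apply]
      congr 2
      apply Subtype.ext
      simp
    rw [hc]
    have hirr2 : IsIrrCharacter A (conjFun A x⁻¹ ϑ) := isIrr_conjFun A x⁻¹ hϑ
    by_cases hx : x ∈ I
    · rw [if_pos hx]
      have hx' : x⁻¹ ∈ I := I.inv_mem hx
      have h1 : conjFun A x⁻¹ ϑ = ϑ := by
        funext b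
        rw [hI] at hx'
        exact (mem_inertiaOf A ϑ x⁻¹).mp hx' b
      rw [h1, classInner_irr_self hϑ, mul_one]
    · rw [if_neg hx]
      have h1 : conjFun A x⁻¹ ϑ ≠ ϑ := by
        intro h
        apply hx
        have : x⁻¹ ∈ I := by
          rw [hI]
          exact (mem_inertiaOf A ϑ x⁻¹).mpr (fun b => congrFun h b)
        simpa using I.inv_mem this
      rw [classInner_irr_of_ne hirr2 hϑ h1, mul_zero]
  -- combine
  have hsum : ∑ b : A, indFun I ψ ((y : R) * b) * conj (ϑ b) = 0 :=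
    Finset.sum_eq_zero fun b _ => by rw [h0 b, zero_mul]
  have hcl := isClassFunction_of_isCharacter hψ
  have key : ∑ b : A, indFun I ψ ((y : R) * b) * conj (ϑ b) =
      (Nat.card I : ℂ)⁻¹ * ∑ x : R, extendByZero I ψ (x⁻¹ * (y : R) * x) *
        (if x ∈ I then (Nat.card A : ℂ) else 0) := by
    simp_rw [indFun_apply, hE, ← hS]
    simp only [Finset.mul_sum, Finset.sum_mul]
    rw [Finset.sum_comm]
    refine Finset.sum_congr rfl fun x _ => Finset.sum_congr rfl fun b _ => ?_
    ring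
  have hsub : ∑ x : R, extendByZero I ψ (x⁻¹ * (y : R) * x) *
        (if x ∈ I then (Nat.card A : ℂ) else 0) = (Nat.card I : ℂ) * (ψ y * (Nat.card A : ℂ)) := by
    have h1 : ∀ x : R, extendByZero I ψ (x⁻¹ * (y : R) * x) *
        (if x ∈ I then (Nat.card A : ℂ) else 0) =
        if x ∈ I then ψ y * (Nat.card A : ℂ) else 0 := by
      intro x
      by_cases hx : x ∈ I
      · rw [if_pos hx, if_pos hx]
        have hm : x⁻¹ * (y : R) * x ∈ I := I.mul_mem (I.mul_mem (I.inv_mem hx) y.2) hx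
        rw [extendByZero_of_mem _ _ hm]
        congr 1
        have := hcl y (⟨x, hx⟩ : I)⁻¹
        rw [← this]
        congr 1
        apply Subtype.ext
        simp
      · rw [if_neg hx, if_neg hx, mul_zero]
    simp_rw [h1]
    rw [Finset.sum_ite, Finset.sum_const_zero, add_zero, Finset.sum_const, nsmul_eq_mul]
    congr 2
    rw [Nat.card_eq_fintype_card, Fintype.card_subtype]
  rw [key, hsub, inv_mul_cancel_left₀ natCard_ne_zero_complex] at hsum
  rcases mul_eq_zero.mp hsum with h | h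
  · exact h
  · exact absurd h natCard_ne_zero_complex

end Vanish

end Cfsg.Agent.Lib.CamPair.RegA
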