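import Mathlib
import Cfsg.Agent.Lib.CamPair.RegA

/-!
# Regular constituents (for S4141)

An irreducible character of an odd `r`-group that vanishes off the normal subgroup `T` and has no
eigenvalue `1` off `T` lies over an irreducible character of `T` whose inertia group is `T`.
-/

set_option autoImplicit false

namespace Cfsg.Agent.Lib.CamPair

open Cfsg Cfsg.Agent.Lib.Char.Basic Cfsg.Agent.Lib.Char.Ortho Cfsg.Agent.Lib.Char.Induced
  Cfsg.Agent.Lib.Char.Clifford Cfsg.Agent.Lib.Char.CliffordCorr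
  Cfsg.Agent.Lib.Char.Monomial Cfsg.Agent.Lib.Char.LinearChars Cfsg.Agent.Lib.CamPair.RegA
open scoped ComplexConjugate

universe u

/-- The two descriptions of the intersection of two subgroups. -/
def eInf {R : Type*} [Group R] (S U : Subgroup R) : ↥(S.subgroupOf U) ≃* ↥(U.subgroupOf S) where
  toFun x := ⟨⟨((x : U) : R), Subgroup.mem_subgroupOf.mp x.2⟩, Subgroup.mem_subgroupOf.mpr (x : U).2⟩
  invFun y := ⟨⟨((y : S) : R), Subgroup.mem_subgroupOf.mp y.2⟩, Subgroup.mem_subgroupOf.mpr (y : S).2⟩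
  left_inv _ := rfl
  right_inv _ := rfl
  map_mul' _ _ := rfl

/-- A multiple of an irreducible character splitting as `r + Ξ` has `r` over it. -/
theorem over_of_add {X : Type*} [Group X] [Fintype X] {ϑ f Ξ : X → ℂ} (hϑ : IsIrrCharacter X ϑ)
    (hf : IsCharacter X f) (hf1 : f 1 ≠ 0) (hΞ : IsCharacter X Ξ) (c : ℂ)
    (h : ∀ b, f b + Ξ b = c * ϑ b) : classInner f ϑ ≠ 0 := by
  classical
  intro h0
  obtain ⟨μ, hμ, hne⟩ := exists_irr_constituent hf hf1
  have hμϑ : ϑ ≠ μ := by
    rintro rfl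
    exact hne h0
  have h1 : classInner ϑ μ = 0 := classInner_irr_of_ne hϑ hμ hμϑ
  have h2 : f + Ξ = c • ϑ := by
    funext b
    simpa using h b
  have h3 : classInner (f + Ξ) μ = 0 := by
    rw [h2, classInner_smul_left, h1, mul_zero]
  rw [classInner_add_left] at h3
  obtain ⟨m, hm⟩ := exists_nat_classInner_of_isCharacter hf (isCharacter_of_isIrrCharacter hμ)
  obtain ⟨l, hl⟩ := exists_nat_classInner_of_isCharacter hΞ (isCharacter_of_isIrrCharacter hμ)
  rw [hm, hl] at h3
  have h4 : m + l = 0 := by exact_mod_cast h3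
  apply hne
  rw [hm]
  have : m = 0 := by omega
  simp [this]

section Step
variable {R : Type u} [Group R] [Fintype R]

/-- The Clifford step. -/
theorem clifford_step (T : Subgroup R) [hTn : T.Normal] (A : Subgroup R) [hAn : A.Normal] (hAT : A ≤ T)
    (θ : A →* ℂˣ) (I : Subgroup R) (hAI : A ≤ I)
    (hI : ∀ g : R, g ∈ I ↔ ∀ n : A, ((θ ⟨g * n * g⁻¹, hAn.conj_mem (n : R) n.2 g⟩ : ℂˣ) : ℂ) = ((θ n : ℂˣ) : ℂ))
    [Fintype A] [Fintype I] [Fintype T] [Fintype ↥(A.subgroupOf T)] [Fintype ↥(I.subgroupOf T)]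
    (τ₁ : ↥(T.subgroupOf I) → ℂ) [Fintype ↥(T.subgroupOf I)] (hτ₁ : IsIrrCharacter _ τ₁)
    (hover : classInner (fun b : A => τ₁ ⟨⟨b, hAI b.2⟩, Subgroup.mem_subgroupOf.mpr (hAT b.2)⟩)
      (fun b => ((θ b : ℂˣ) : ℂ)) ≠ 0)
    (hreg : ∀ g : I, conjFun (T.subgroupOf I) g τ₁ = τ₁ → g ∈ T.subgroupOf I) :
    IsIrrCharacter T (indFun (I.subgroupOf T) (fun x => τ₁ (eInf I T x))) ∧
      ∀ g : R, conjFun T g (indFun (I.subgroupOf T) (fun x => τ₁ (eInf I T x))) =
        indFun (I.subgroupOf T) (fun x => τ₁ (eInf I T x)) → g ∈ T := by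
  classical
  let ϑ : A → ℂ := fun b => ((θ b : ℂˣ) : ℂ)
  have hϑ : IsIrrCharacter A ϑ := isIrr_of_hom θ
  let H' : Subgroup T := A.subgroupOf T
  let T' : Subgroup T := I.subgroupOf T
  let ι : ↥H' ≃* A := Subgroup.subgroupOfEquivOfLe hAT
  let e : ↥T' ≃* ↥(T.subgroupOf I) := eInf I T
  let ϑ' : H' → ℂ := fun n => ϑ (ι n)
  have hH'n : H'.Normal := inferInstance
  have hH'T' : H' ≤ T' := fun n hn => hAI hn
  have hϑ' : IsIrrCharacter H' ϑ' := isIrrCharacter_comp_surjective hϑ ι.toMonoidHom ι.surjective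
  have hT' : ∀ g : T, g ∈ T' ↔ ∀ n : H', ϑ' ⟨g * n * g⁻¹, hH'n.conj_mem (n : T) n.2 g⟩ = ϑ' n := by
    intro g
    constructor
    · intro hg n
      exact (hI (g : R)).mp hg (ι n)
    · intro h
      apply (hI (g : R)).mpr
      intro b
      exact h (ι.symm b)
  set τ₁' : T' → ℂ := fun x => τ₁ (e x) with hτ₁'def
  have hτ₁' : IsIrrCharacter T' τ₁' := isIrrCharacter_comp_surjective hτ₁ e.toMonoidHom e.surjective
  have hover' : classInner (resT H' T' hH'T' τ₁') ϑ' ≠ 0 := by
    have := classInner_comp_equiv ι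
      (fun b : A => τ₁ ⟨⟨b, hAI b.2⟩, Subgroup.mem_subgroupOf.mpr (hAT b.2)⟩) ϑ
    intro h0
    apply hover
    rw [← this]
    exact h0
  have hτ : IsIrrCharacter T (indFun T' τ₁') := isIrr_indFun H' ϑ' T' hH'T' hϑ' hT' hτ₁' hover'
  refine ⟨hτ, ?_⟩
  set τ : T → ℂ := indFun T' τ₁' with hτdef
  intro g hg
  have hτc := isCharacter_of_isIrrCharacter hτ
  have hτcl := isClassFunction_of_isCharacter hτc
  have hself : classInner (indFun T' τ₁') τ ≠ 0 := by
    rw [← hτdef, classInner_irr_self hτ]; exact one_ne_zero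
  have hcore := core H' ϑ' T' hH'T' hϑ' hT' hτ₁' hover' hτ hself
  -- step 1: `τ` over `ϑ`
  let fA : A → ℂ := fun b => τ ⟨b, hAT b.2⟩
  have hE1 : classInner fA ϑ ≠ 0 := by
    have h1 := classInner_comp_equiv ι fA ϑ
    rw [← h1]
    have h2 : classInner (fun n : H' => τ n) ϑ' ≠ 0 := by
      rw [← hcore.2]
      exact hover'
    exact h2
  -- step 2: conjugates
  have hfA : conjFun A g fA = fA := by
    funext b
    exact congrFun hg ⟨b, hAT b.2⟩
  have hE2 : classInner fA (conjFun A g ϑ) ≠ 0 := by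
    have h1 := classInner_conjFun A g fA ϑ
    rw [hfA] at h1
    rw [h1]
    exact hE1
  let lam : H' → ℂ := fun n => conjFun A g ϑ (ι n)
  have hlam : IsIrrCharacter H' lam :=
    isIrrCharacter_comp_surjective (isIrr_conjFun A g hϑ) ι.toMonoidHom ι.surjective
  have hE1' : classInner (fun n : H' => τ n) ϑ' ≠ 0 := by
    rw [← hcore.2]
    exact hover'
  have hE2' : classInner (fun n : H' => τ n) lam ≠ 0 := by
    have h1 := classInner_comp_equiv ι fA (conjFun A g ϑ)
    intro h0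
    apply hE2
    rw [← h1]
    exact h0
  obtain ⟨t, ht⟩ := exists_conj_of_classInner_ne_zero (N := H') hτ hϑ' hlam hE1' hE2'
  -- step 3: `g₀ = g t⁻¹` is in the inertia group
  set g₀ : R := g * (t : R)⁻¹ with hg₀def
  have hg₀ : g₀ ∈ I := by
    apply (hI g₀).mpr
    intro b
    have hmem : (t : R)⁻¹ * b * (t : R) ∈ A := by
      simpa using hAn.conj_mem (b : R) b.2 (t : R)⁻¹
    have h1 := congrFun ht (ι.symm ⟨(t : R)⁻¹ * b * (t : R), hmem⟩)
    have h2 : (θ ⟨g * ((t : R)⁻¹ * b * (t : R)) * g⁻¹, hAn.conj_mem _ hmem g⟩ : ℂ) =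
        (θ ⟨(t : R) * ((t : R)⁻¹ * b * (t : R)) * (t : R)⁻¹, hAn.conj_mem _ hmem _⟩ : ℂ) := h1
    have h3 : (⟨(t : R) * ((t : R)⁻¹ * b * (t : R)) * (t : R)⁻¹, hAn.conj_mem _ hmem _⟩ : A) = b := by
      apply Subtype.ext
      simp [mul_assoc]
    rw [h3] at h2
    rw [← h2]
    congr 2
    apply Subtype.ext
    simp [hg₀def, mul_assoc]
  have hτg₀ : conjFun T g₀ τ = τ := by
    rw [hg₀def]
    have ht' : ((t : R)⁻¹) = ((t⁻¹ : T) : R) := rfl
    rw [conjFun_mul, hg]
    funext x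
    exact hτcl x t⁻¹
  -- step 4: the conjugate of `τ₁`
  let g₁ : I := ⟨g₀, hg₀⟩
  let τ₂ := conjFun (T.subgroupOf I) g₁ τ₁
  have hτ₂ : IsIrrCharacter _ τ₂ := isIrr_conjFun _ g₁ hτ₁
  let τ₂' : T' → ℂ := fun x => τ₂ (e x)
  have hτ₂' : IsIrrCharacter T' τ₂' := isIrrCharacter_comp_surjective hτ₂ e.toMonoidHom e.surjective
  have hϑg₀ : conjFun A g₀ ϑ = ϑ := by
    funext b
    exact (hI g₀).mp hg₀ b
  have hover₂ : classInner (resT H' T' hH'T' τ₂') ϑ' ≠ 0 := by
    let r₁ : A → ℂ := fun b => τ₁ ⟨⟨b, hAI b.2⟩, Subgroup.mem_subgroupOf.mpr (hAT b.2)⟩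
    have h1 := classInner_conjFun A g₀ r₁ ϑ
    rw [hϑg₀] at h1
    have h2 := classInner_comp_equiv ι (conjFun A g₀ r₁) ϑ
    intro h0
    apply hover
    rw [← h1, ← h2]
    exact h0
  have hc₂ : classInner (indFun T' τ₂') τ ≠ 0 := by
    rw [frobenius_reciprocity T' τ₂' τ hτcl]
    let f₁ : ↥(T.subgroupOf I) → ℂ := fun x => τ ⟨((x : I) : R), Subgroup.mem_subgroupOf.mp x.2⟩
    have hf₁ : conjFun (T.subgroupOf I) g₁ f₁ = f₁ := by
      funext x
      exact congrFun hτg₀ ⟨((x : I) : R), Subgroup.mem_subgroupOf.mp x.2⟩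
    have h1 := classInner_conjFun (T.subgroupOf I) g₁ τ₁ f₁
    rw [hf₁] at h1
    have h2 := classInner_comp_equiv e τ₂ f₁
    have h3 := classInner_comp_equiv e τ₁ f₁
    have h4 := frobenius_reciprocity T' τ₁' τ hτcl
    intro h0
    apply hself
    rw [h4]
    have h5 : classInner (fun x : T' => τ₁ (e x)) (fun x : T' => f₁ (e x)) = 0 := by
      rw [h3, ← h1, ← h2]
      exact h0
    exact h5
  have hind₂ := (core H' ϑ' T' hH'T' hϑ' hT' hτ₂' hover₂ hτ hc₂).1
  have heq : τ₂' = τ₁' :=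
    eq_of_indFun_eq H' ϑ' T' hH'T' hϑ' hT' hτ₂' hτ₁' hover₂ hover' hind₂
  have hτ₂₁ : τ₂ = τ₁ := by
    funext y
    have := congrFun heq (e.symm y)
    simpa [τ₂', hτ₁'def] using this
  have hg₁ := hreg g₁ hτ₂₁
  have hg₀T : g₀ ∈ T := Subgroup.mem_subgroupOf.mp hg₁
  have : g = g₀ * (t : R) := by simp [hg₀def]
  rw [this]
  exact T.mul_mem hg₀T t.2

end Step

section Main
variable {r : ℕ} [hr : Fact r.Prime]

/-- The induction, with the constituent statement. -/
theorem regular_aux (hodd : r ≠ 2) : ∀ (m : ℕ) (R : Type u) [Group R] [Finite R], Nat.card R = m →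
    IsPGroup r R → ∀ (T : Subgroup R) [T.Normal] (χ : R → ℂ), IsIrrCharacter R χ →
    (∀ x, x ∉ T → χ x = 0) →
    (∀ x, x ∉ T → ∑ k ∈ Finset.range (orderOf x), χ (x ^ k) = 0) →
    ∃ τ : T → ℂ, IsIrrCharacter T τ ∧ (∃ Ξ : T → ℂ, IsCharacter T Ξ ∧ ∀ t : T, χ t = τ t + Ξ t) ∧
      ∀ g : R, conjFun T g τ = τ → g ∈ T := by
  intro m
  induction m using Nat.strong_induction_on with
  | _ m ih =>
    intro R _ _ hm hR T _ χ hχ hvan hne
    classical
    obtain ⟨n, ρ, hirr, rfl⟩ := hχ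
    by_cases hTZ : T ≤ scalarSubgroup ρ
    · have hTop := case_one hodd hR T ρ hTZ hvan hne
      subst hTop
      refine ⟨fun t => ρ.character t,
        isIrrCharacter_comp_surjective ⟨n, ρ, hirr, rfl⟩ (⊤ : Subgroup R).subtype
          (fun x => ⟨⟨x, trivial⟩, rfl⟩),
        ⟨0, isCharacter_zero, fun t => by simp⟩, fun g _ => trivial⟩
    · obtain ⟨A, hAn, hAT, θ, hItop, hin⟩ := exists_data hR T ρ hTZ
      letI : Fintype R := Fintype.ofFinite R
      letI : Fintype A := Fintype.ofFinite A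
      letI : Fintype T := Fintype.ofFinite T
      let ϑ : A → ℂ := fun b => ((θ b : ℂˣ) : ℂ)
      let I : Subgroup R := inertiaOf A ϑ
      letI : Fintype I := Fintype.ofFinite I
      letI : Fintype ↥(A.subgroupOf T) := Fintype.ofFinite _
      letI : Fintype ↥(I.subgroupOf T) := Fintype.ofFinite _
      letI : Fintype ↥(T.subgroupOf I) := Fintype.ofFinite _
      have hAI : A ≤ I := by
        intro c hc b
        show ((θ _ : ℂˣ) : ℂ) = ((θ b : ℂˣ) : ℂ)
        have : (⟨c * b * c⁻¹, hAn.conj_mem (b : R) b.2 c⟩ : A) = ⟨c, hc⟩ * b * ⟨c, hc⟩⁻¹ := rfl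
        rw [this, map_mul, map_mul, map_inv, mul_comm (θ ⟨c, hc⟩) (θ b), mul_inv_cancel_right]
      have hϑ : IsIrrCharacter A ϑ := isIrr_of_hom θ
      have hχ : IsIrrCharacter R ρ.character := ⟨n, ρ, hirr, rfl⟩
      have hχc := isCharacter_of_isIrrCharacter hχ
      have hχcl := isClassFunction_of_isCharacter hχc
      obtain ⟨ψ, hψ, hind, hmult⟩ := exists_indFun_eq A ϑ I hAI hϑ (mem_inertiaOf A ϑ) hχ hin
      have hover : classInner (resT A I hAI ψ) ϑ ≠ 0 := by
        rw [hmult]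
        exact hin
      have hψc := isCharacter_of_isIrrCharacter hψ
      have hsm := res_eq_smul_of_inertia A ϑ I hAI hϑ (mem_inertiaOf A ϑ) hψ hover
      set c := classInner (resT A I hAI ψ) ϑ with hcdef
      have hres : ∀ b : A, ψ ⟨b, hAI b.2⟩ = c * ((θ b : ℂˣ) : ℂ) := by
        intro b
        have := congrFun hsm b
        simpa using this
      -- `ψ` vanishes off `T`
      have hvanψ : ∀ x : I, x ∉ T.subgroupOf I → ψ x = 0 := by
        intro x hx
        refine vanish_of_ind A θ I rfl hAI hψc c hres x (fun b => ?_)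
        rw [hind]
        apply hvan
        intro hmem
        apply hx
        apply Subgroup.mem_subgroupOf.mpr
        have := T.mul_mem hmem (T.inv_mem (hAT b.2))
        simpa using this
      -- `χ|I = ψ + Ξ`
      have hcI : classInner (fun t : I => ρ.character t) ψ ≠ 0 := by
        have h1 := frobenius_reciprocity I ψ ρ.character hχcl
        rw [hind, classInner_irr_self hχ] at h1
        intro h0
        have h2 := classInner_conj_symm (fun t : I => ρ.character t) ψ
        rw [h0] at h2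
        rw [← h2] at h1
        simp at h1
      obtain ⟨ΞI, hΞI, hdecI⟩ := exists_char_add (isCharacter_restrict hχc I) hψ hcI
      have hneψ : ∀ x : I, x ∉ T.subgroupOf I →
          ∑ k ∈ Finset.range (orderOf x), ψ (x ^ k) = 0 := by
        intro x hx
        refine sum_pow_eq_zero_of_add hψc hΞI (h := fun y : I => ρ.character y)
          (fun y => congrFun hdecI y) x ?_
        have hxT : (x : R) ∉ T := fun h => hx (Subgroup.mem_subgroupOf.mpr h)
        have := hne (x : R) hxT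
        rw [Subgroup.orderOf_coe] at this
        simpa using this
      have hcard : Nat.card I < m := hm ▸ card_lt_of_ne_top hItop
      obtain ⟨τ₁, hτ₁, ⟨Ξ₁, hΞ₁, hdec₁⟩, hreg₁⟩ := ih _ hcard I rfl (hR.to_subgroup I)
        (T.subgroupOf I) ψ hψ hvanψ hneψ
      -- `τ₁` lies over `ϑ`
      let j : A →* ↥(T.subgroupOf I) :=
        { toFun := fun b => ⟨⟨b, hAI b.2⟩, Subgroup.mem_subgroupOf.mpr (hAT b.2)⟩
          map_one' := rfl
          map_mul' := fun _ _ => rfl }
      have hover₁ : classInner (fun b : A => τ₁ (j b)) ϑ ≠ 0 := by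
        refine over_of_add hϑ (isCharacter_comp_hom (isCharacter_of_isIrrCharacter hτ₁) j) ?_
          (isCharacter_comp_hom hΞ₁ j) c ?_
        · have h1 : j 1 = 1 := map_one j
          show τ₁ (j 1) ≠ 0
          rw [h1]
          exact irr_apply_one_ne_zero hτ₁
        · intro b
          show τ₁ (j b) + Ξ₁ (j b) = _
          rw [← hdec₁ (j b)]
          exact hres b
      have hstep := clifford_step T A hAT θ I hAI (mem_inertiaOf A ϑ) τ₁ hτ₁ hover₁ hreg₁
      refine ⟨_, hstep.1, ?_, hstep.2⟩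
      -- the constituent
      let e : ↥(I.subgroupOf T) ≃* ↥(T.subgroupOf I) := eInf I T
      set τ₁' : ↥(I.subgroupOf T) → ℂ := fun x => τ₁ (e x) with hτ₁'def
      have hτ₁' : IsIrrCharacter _ τ₁' := isIrrCharacter_comp_surjective hτ₁ e.toMonoidHom e.surjective
      have hχT : IsClassFunction T (fun t : T => ρ.character t) :=
        isClassFunction_of_isCharacter (isCharacter_restrict hχc T)
      let G : ↥(I.subgroupOf T) → ℂ := fun x => Ξ₁ (e x) + ΞI (e x : I)
      have hG : IsCharacter _ G := isCharacter_add (isCharacter_comp_hom hΞ₁ e.toMonoidHom)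
        (isCharacter_comp_hom hΞI ((T.subgroupOf I).subtype.comp e.toMonoidHom))
      have hdecT : (fun x : ↥(I.subgroupOf T) => ρ.character ((x : T) : R)) = τ₁' + G := by
        funext x
        have h1 := congrFun hdecI (e x : I)
        have h2 := hdec₁ (e x)
        show ρ.character ((x : T) : R) = τ₁ (e x) + (Ξ₁ (e x) + ΞI (e x : I))
        rw [← add_assoc, ← h2]
        exact h1
      have hc0 := classInner_add_ne_zero hτ₁' hG hdecT
      have hc1 : classInner (indFun (I.subgroupOf T) τ₁') (fun t : T => ρ.character t) ≠ 0 := by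
        rw [frobenius_reciprocity (I.subgroupOf T) τ₁' _ hχT]
        intro h0
        have h2 := classInner_conj_symm τ₁' (fun x : ↥(I.subgroupOf T) => ρ.character ((x : T) : R))
        rw [h0] at h2
        apply hc0
        rw [← h2]
        simp
      have hc2 : classInner (fun t : T => ρ.character t) (indFun (I.subgroupOf T) τ₁') ≠ 0 := by
        intro h0
        have h2 := classInner_conj_symm (indFun (I.subgroupOf T) τ₁') (fun t : T => ρ.character t)
        rw [h0] at h2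
        apply hc1
        simpa using h2
      obtain ⟨Ξ, hΞ, hdec⟩ := exists_char_add (isCharacter_restrict hχc T) hstep.1 hc2
      exact ⟨Ξ, hΞ, fun t => congrFun hdec t⟩

/-- **Regular constituent theorem**. -/
theorem exists_regular_constituent {R : Type u} [Group R] [Finite R] (hodd : r ≠ 2)
    (hR : IsPGroup r R) (T : Subgroup R) [T.Normal] (χ : R → ℂ) (hχ : IsIrrCharacter R χ)
    (hvan : ∀ x, x ∉ T → χ x = 0)
    (hne : ∀ x, x ∉ T → ∑ k ∈ Finset.range (orderOf x), χ (x ^ k) = 0) :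
    ∃ τ : T → ℂ, IsIrrCharacter T τ ∧ ∀ g : R, conjFun T g τ = τ → g ∈ T := by
  obtain ⟨τ, h1, -, h2⟩ := regular_aux hodd _ R rfl hR T χ hχ hvan hne
  exact ⟨τ, h1, h2⟩

end Main

end Cfsg.Agent.Lib.CamPair

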