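import Mathlib
import Cfsg.Agent.Lib.CamPair.ClaimCCore
import Cfsg.Agent.Lib.CamPair.Lift
import Cfsg.Agent.Lib.CamPair.Regular
import Cfsg.Agent.Lib.CamPair.NoReg

/-!
# Piece C of S4141
-/

set_option autoImplicit false

namespace Cfsg.Agent.Lib.CamPair

open Cfsg Cfsg.Agent.Lib.Char.Basic Cfsg.Agent.Lib.Char.Ortho Cfsg.Agent.Lib.Char.Clifford

universe u v

variable {R : Type u} [Group R] [Finite R] {r : ℕ} [Fact r.Prime]

/-- **Piece C.** -/
theorem eq_one_of_fpf (hodd : r ≠ 2) (hR : IsPGroup r R) (T : Subgroup R) [T.Normal] (hT1 : T ≠ ⊥)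
    (hT : T ≠ ⊤) (hC : CamP T) {A : Type v} [CommGroup A] [Finite A] {s : ℕ} [Fact s.Prime]
    (hrs : s ≠ r) (hA : ∀ a : A, a ^ s = 1) (φ : R →* MulAut A)
    (hfix : ∀ x, x ∉ T → ∀ a : A, φ x a = a → a = 1) (a : A) : a = 1 :=
  eq_one_of_fpf_core hodd hR T hT1 hT hC hrs hA φ hfix
    (fun _ => exists_lift hodd hR hrs hA φ)
    (fun χ hχ hv hn => exists_regular_constituent hodd hR T χ hχ hv hn)
    (fun hidx τ hτ hreg => no_regular_irr hR T hT hidx hC τ hτ hreg) a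

end Cfsg.Agent.Lib.CamPair
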